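import Cfsg.Agent.AltModCert.Main
import Cfsg.Prelude.Def_LocalEven

/-!
Embeddings of alternating groups and the final argument.
-/

namespace Cfsg.Agent.AltModCert

open Equiv Equiv.Perm

/-- extension of even permutations along an embedding -/
noncomputable def altEmb {m n : ℕ} (e : Fin m ↪ Fin n) :
    alternatingGroup (Fin m) →* alternatingGroup (Fin n) where
  toFun σ := ⟨Equiv.Perm.extendDomain (σ : Equiv.Perm (Fin m)) (Equiv.ofInjective e e.injective), by
    rw [Equiv.Perm.mem_alternatingGroup, Equiv.Perm.sign_extendDomain]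
    exact Equiv.Perm.mem_alternatingGroup.mp σ.2⟩
  map_one' := Subtype.ext (Equiv.Perm.extendDomain_one _)
  map_mul' a b := Subtype.ext (Equiv.Perm.extendDomain_mul _ _ _).symm

theorem altEmb_injective {m n : ℕ} (e : Fin m ↪ Fin n) : Function.Injective (altEmb e) := by
  intro a b h
  exact Subtype.ext (Equiv.Perm.extendDomainHom_injective _ (congrArg Subtype.val h))

theorem altEmb_commute {m k n : ℕ} (e : Fin m ↪ Fin n) (f : Fin k ↪ Fin n)
    (hef : ∀ i j, e i ≠ f j) (a : alternatingGroup (Fin m)) (b : alternatingGroup (Fin k)) :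
    altEmb f b * altEmb e a = altEmb e a * altEmb f b := by
  apply Subtype.ext
  refine (Equiv.Perm.Disjoint.commute ?_).eq
  intro x
  by_cases hx : x ∈ Set.range f
  · right
    obtain ⟨j, rfl⟩ := hx
    exact Equiv.Perm.extendDomain_apply_not_subtype _ _ (by
      rintro ⟨i, hi⟩
      exact hef i j hi)
  · left
    exact Equiv.Perm.extendDomain_apply_not_subtype _ _ hx

theorem not_isSolvable_alt_five : ¬ Group.IsSolvable (alternatingGroup (Fin 5)) := by
  intro h
  apply Equiv.Perm.fin_5_not_solvable
  exact Group.isSolvable_of_ker_le_range (alternatingGroup (Fin 5)).subtype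
    (Equiv.Perm.sign (α := Fin 5)) (by
      rw [Subgroup.range_subtype]; exact le_of_eq rfl)

universe u

/-- the bound -/
theorem bound {G : Type u} [Group G] [Finite G] (p : ℕ) [Fact p.Prime]
    (h : ∀ x : G, x ∉ Subgroup.center G → (∃ k : ℕ, orderOf x = p ^ k) →
      Group.IsSolvable (Subgroup.centralizer ({x} : Set G)))
    {m n : ℕ} (hn : n = m + 5) (s : alternatingGroup (Fin m)) (hs : orderOf s = p)
    (hmod : ¬ p ∣ 60 ∨ ModProp.{u} p (alternatingGroup (Fin n)))
    {d : ℕ} (hd : n ≤ d) (hinv : Cfsg.Involves (alternatingGroup (Fin d)) G) : False := by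
  obtain ⟨K, R, hR, ⟨e⟩⟩ := hinv
  haveI := hR
  let θ : K →* alternatingGroup (Fin d) := e.toMonoidHom.comp (QuotientGroup.mk' (R.subgroupOf K))
  have hθ : Function.Surjective θ := e.surjective.comp (QuotientGroup.mk'_surjective _)
  let ι := altEmb (Fin.castLEEmb hd)
  obtain ⟨T, -, hT, hmin⟩ := exists_min_preimage θ (ι.range.comap θ)
  have hrange : (θ.comp T.subtype).range = ι.range := by
    rw [MonoidHom.range_comp, Subgroup.range_subtype, hT,
      Subgroup.map_comap_eq_self_of_surjective hθ]
  let eqv : (θ.comp T.subtype).range ≃* alternatingGroup (Fin n) :=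
    (MulEquiv.subgroupCongr hrange).trans (MonoidHom.ofInjective (altEmb_injective _)).symm
  let φ : T →* alternatingGroup (Fin n) := eqv.toMonoidHom.comp (θ.comp T.subtype).rangeRestrict
  have hφ : IsMinCover φ := by
    refine ⟨eqv.surjective.comp hmin.1, fun X hX => hmin.2 X ?_⟩
    apply Subgroup.map_injective (f := eqv.toMonoidHom) eqv.injective
    rw [Subgroup.map_map, Subgroup.map_top_of_surjective _ eqv.surjective]
    exact hX
  have hcA : Subgroup.center (alternatingGroup (Fin n)) = ⊥ :=
    alternatingGroup.center_eq_bot (by rw [Nat.card_fin]; omega)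
  let e₁ : Fin m ↪ Fin n := (Fin.castLEEmb (by omega))
  let e₂ : Fin 5 ↪ Fin n :=
    ⟨fun i => ⟨m + i, by omega⟩, fun i j hij => Fin.ext (by simpa using hij)⟩
  have hdisj : ∀ i j, e₁ i ≠ e₂ j := by
    intro i j hij
    have := congrArg Fin.val hij
    have hi := i.isLt
    change (i : ℕ) = m + (j : ℕ) at this
    omega
  have hσ : orderOf (altEmb e₁ s) = p := by
    rw [orderOf_injective _ (altEmb_injective e₁), hs]
  have hD₀ : ¬ Group.IsSolvable (altEmb e₂).range := fun hsol =>
    not_isSolvable_alt_five (Group.isSolvable_of_isSolvable_injective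
      (f := (MonoidHom.ofInjective (altEmb_injective e₂)).toMonoidHom)
      (MonoidHom.ofInjective (altEmb_injective e₂)).injective)
  obtain ⟨y, hyc, ⟨k, hk⟩, hns⟩ := exists_bad hφ hcA hσ hD₀ (by
    rintro _ ⟨b, rfl⟩
    exact altEmb_commute e₁ e₂ hdisj s b) (hmod.imp (fun h60 => by
      rw [← Nat.card_congr (MonoidHom.ofInjective (altEmb_injective e₂)).toEquiv,
        nat_card_alternatingGroup, Nat.card_fin, Nat.coprime_comm,
        (Fact.out : p.Prime).coprime_iff_not_dvd]
      simpa [Nat.factorial] using h60) id)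
  apply hns
  let y' : G := ((y : K) : G)
  have hyG : y' ∉ Subgroup.center G := by
    intro hyG
    apply hyc
    rw [Subgroup.mem_center_iff]
    intro z
    exact Subtype.ext (Subtype.ext (Subgroup.mem_center_iff.mp hyG ((z : K) : G)))
  have hord : orderOf y' = p ^ k := by
    rw [← hk]
    exact orderOf_injective (K.subtype.comp T.subtype)
      (K.subtype_injective.comp T.subtype_injective) y
  haveI := h y' hyG ⟨k, hord⟩
  let g : Subgroup.centralizer ({y} : Set T) →* Subgroup.centralizer ({y'} : Set G) :=
    { toFun := fun z => ⟨(((z : T) : K) : G), Subgroup.mem_centralizer_singleton_iff.mpr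
        (congrArg (fun w : T => ((w : K) : G))
          (Subgroup.mem_centralizer_singleton_iff.mp z.2))⟩
      map_one' := rfl
      map_mul' := fun _ _ => rfl }
  refine Group.isSolvable_of_isSolvable_injective (f := g) fun a b hab => ?_
  exact Subtype.ext (Subtype.ext (Subtype.ext
    (congrArg (fun z : Subgroup.centralizer ({y'} : Set G) => (z : G)) hab)))

end Cfsg.Agent.AltModCert
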