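import Cfsg.Agent.AltModCert.Lanes

/-!
A checker for linear-algebra certificates about modules of alternating groups:
states are families of vectors with prescribed images under some generators, and rules
are eigenvector conditions which only the zero vector satisfies.
-/

namespace Cfsg.Agent.AltModCert

open scoped BigOperators

variable {d : ℕ}

/-- image list of a permutation -/
def img (σ : alternatingGroup (Fin d)) : List ℕ :=
  List.ofFn fun i => (((σ : Equiv.Perm (Fin d)) i : Fin d) : ℕ)

/-- composition of image lists -/
def comp (a b : List ℕ) : List ℕ := b.map fun x => a.getD x 0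

theorem comp_img (a b : alternatingGroup (Fin d)) : comp (img a) (img b) = img (a * b) := by
  unfold comp img
  rw [List.map_ofFn]
  congr 1
  funext i
  simp

theorem img_one : img (1 : alternatingGroup (Fin d)) = List.range d := by
  unfold img
  apply List.ext_getElem <;> simp

theorem img_inj {a b : alternatingGroup (Fin d)} (h : img a = img b) : a = b := by
  apply Subtype.ext
  apply Equiv.ext
  intro i
  apply Fin.ext
  exact congrFun (List.ofFn_inj.mp h) i

/-- a list is the image list of an even permutation -/
def Good (d : ℕ) (L : List ℕ) : Prop := ∃ σ : alternatingGroup (Fin d), img σ = L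

theorem Good.range : Good d (List.range d) := ⟨1, img_one⟩

theorem Good.comp {a b : List ℕ} : Good d a → Good d b → Good d (comp a b) := by
  rintro ⟨x, rfl⟩ ⟨y, rfl⟩
  exact ⟨x * y, (comp_img x y).symm⟩

/-- two base permutations -/
abbrev Data := List ℕ × List ℕ

/-- image list of a word in the two base permutations -/
def imgW (d : ℕ) (D : Data) : List Bool → List ℕ
  | [] => List.range d
  | b :: t => AltModCert.comp (if b then D.2 else D.1) (imgW d D t)

/-- both base lists are even permutations -/
def Real (d : ℕ) (D : Data) : Prop := Good d D.1 ∧ Good d D.2

theorem good_imgW {D : Data} (hD : Real d D) : ∀ w, Good d (imgW d D w) := by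
  intro w
  induction w with
  | nil => exact Good.range
  | cons b t ih =>
    cases b
    · exact hD.1.comp ih
    · exact hD.2.comp ih

/-- image list of a word in given generators -/
def imgG (d : ℕ) (gs : List (List ℕ)) : List ℕ → List ℕ
  | [] => List.range d
  | j :: t => AltModCert.comp (gs.getD j (List.range d)) (imgG d gs t)

theorem good_imgG {gs : List (List ℕ)} (h : ∀ g ∈ gs, Good d g) : ∀ w, Good d (imgG d gs w) := by
  intro w
  induction w with
  | nil => exact Good.range
  | cons j t ih =>
    refine Good.comp ?_ ih
    rw [List.getD_eq_getElem?_getD]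
    cases hj : gs[j]? with
    | none => exact Good.range
    | some g => exact h g (List.mem_of_getElem? hj)

/-- lookup in a list cut into chunks of 16 -/
def g2 {α : Type} (dflt : α) (L : List (List α)) (i : ℕ) : α := (L.getD (i / 16) []).getD (i % 16) dflt

/-- powers of the base -/
def pw (i : ℕ) : ℕ := B ^ i

/-- multiples of powers of the base -/
def cpw (c i : ℕ) : ℕ := c * B ^ i

/-- a state: `m` vectors, generators and their matrices -/
structure St where
  m : ℕ
  gens : List (List Bool)
  rows : List (List ℕ)

/-- a rule: eigenvector conditions -/
abbrev Rule := List (List Bool × ℕ)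

/-- the state of a single vector satisfying a rule -/
def ofRule (r : Rule) : St := ⟨1, r.map Prod.fst, r.map fun e => [e.2]⟩

section Sem

variable (V : Type*) [AddCommGroup V] [DistribMulAction (alternatingGroup (Fin d)) V]

variable (d) in
/-- only zero satisfies the rule -/
def Zero (D : Data) (r : Rule) : Prop :=
  ∀ v : V, (∀ e ∈ r, ∀ σ : alternatingGroup (Fin d), img σ = imgW d D e.1 → σ • v = e.2 • v) →
    v = 0

variable (d) in
/-- the family `w` realizes the state -/
def Sat (D : Data) (st : St) (w : ℕ → V) : Prop :=
  ∀ j < st.gens.length, ∀ σ : alternatingGroup (Fin d), img σ = imgW d D (st.gens.getD j []) →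
    ∀ i < st.m, σ • w i = val st.m w ((st.rows.getD j []).getD i 0)

variable (d) in
/-- the first `q` vectors vanish in every realization -/
def VZero (D : Data) (st : St) (q : ℕ) : Prop :=
  ∀ w : ℕ → V, Sat d V D st w → ∀ i < q, w i = 0

end Sem

section Check

variable (p : ℕ) (d : ℕ) (D : Data)

/-- position of the highest lane (a guess, used without any specification) -/
def top (X : ℕ) : ℕ → ℕ → ℕ
  | 0, acc => acc
  | k + 1, acc => if pw (acc + 2 ^ k) ≤ X then top X k (acc + 2 ^ k) else top X k acc

/-- a vector is reduced; fast path for multiples of unit vectors -/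
def okRow (m X : ℕ) : Bool :=
  (decide (top X 9 0 < m) &&
    decide (X / pw (top X 9 0) < p) &&
    decide (X / pw (top X 9 0) * pw (top X 9 0) = X)) ||
  decide (norm p m X = X)

/-- rows are reduced and of the right number, and no overflow can happen -/
def okSt (st : St) : Bool :=
  decide (2 * p * p * (st.m + 1) < B) && decide (0 < p) &&
  decide (st.rows.length = st.gens.length) &&
  st.rows.all fun R => decide (R.length = st.m) && R.all fun X => okRow p st.m X

/-- image of a vector under a generator -/
def mul (st : St) (j X : ℕ) : ℕ :=
  norm p st.m (dot (st.rows.getD j []) X)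

/-- image of a vector under a word in the generators -/
def mulW (st : St) : List ℕ → ℕ → ℕ
  | [], X => X
  | j :: t, X => mul p st j (mulW st t X)

/-- justifications of killed vectors -/
inductive Op where
  | comb (l : List (ℕ × ℕ))
  | mul (j i : ℕ)
  | kill (r c : ℕ) (wit : List (List ℕ × List (ℕ × ℕ)))

/-- the `i`-th killed vector, provided `i < k` -/
def getV (vals : List (List ℕ)) (k i : ℕ) : ℕ := if i < k then g2 0 vals i else 0

/-- a combination of killed vectors -/
def combV (st : St) (vals : List (List ℕ)) (k : ℕ) (l : List (ℕ × ℕ)) : ℕ :=
  norm p st.m (wsum (l.map fun e => (e.2 % p, getV vals k e.1)))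

/-- one step of the certificate -/
def chkOp (st : St) (rules : List Rule) (vals : List (List ℕ)) (k : ℕ) : Op → Bool
  | .comb l => decide (l.length ≤ 2 * (st.m + 1)) && decide (combV p st vals k l = g2 0 vals k)
  | .mul j i => decide (j < st.gens.length) &&
      decide (mul p st j (getV vals k i) = g2 0 vals k)
  | .kill r c wit => decide (r < rules.length) && decide (norm p st.m c = c) &&
      decide (g2 0 vals k = c) && decide (wit.length = (rules.getD r []).length) &&
      ((rules.getD r []).zip wit).all fun e =>
        e.2.1.all (fun j => decide (j < st.gens.length)) &&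
        decide (e.2.2.length ≤ 2 * (st.m + 1)) &&
        decide (imgG d (st.gens.map (imgW d D)) e.2.1 = imgW d D e.1.1) &&
        decide (norm p st.m (wsum [(1, mulW p st e.2.1 c), (p - e.1.2 % p, c)])
          = combV p st vals k e.2.2)

/-- the whole certificate, showing that the first `q` unit vectors are killed -/
def chkKill (st : St) (rules : List Rule) (vals : List (List ℕ)) (ops : List Op) (units : List ℕ)
    (q : ℕ) : Bool :=
  okSt p st && decide (units.length = q) &&
  decide (q ≤ st.m) &&
  ((List.range ops.length).zip ops).all (fun e => chkOp p d D st rules vals e.1 e.2) &&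
  ((List.range q).zip units).all fun e => decide (getV vals ops.length e.2 = B ^ e.1)

/-- reduction of a state modulo killed vectors -/
def chkRed (st : St) (rules : List Rule) (vals : List (List ℕ)) (ops : List Op) (fr R idx : List ℕ)
    (new : St) : Bool :=
  okSt p st && okSt p new &&
  ((List.range ops.length).zip ops).all (fun e => chkOp p d D st rules vals e.1 e.2) &&
  decide (new.gens = st.gens) && decide (fr.length = new.m) && fr.all (fun a => decide (a < st.m)) &&
  decide (R.length = st.m) &&
  (List.range st.m).all (fun k => decide (norm p st.m (R.getD k 0) = R.getD k 0) &&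
    (decide (R.getD k 0 = B ^ k) ||
      decide (getV vals ops.length (idx.getD k 0) =
        norm p st.m (wsum [(1, B ^ k), (p - 1, R.getD k 0)])))) &&
  (List.range st.m).all (fun k =>
    ((lanes st.m (R.getD k 0)).zip (List.range st.m)).all
      fun e => decide (e.1 = 0) || fr.contains e.2) &&
  (List.range st.gens.length).all (fun j => (List.range new.m).all fun a => decide
    (norm p st.m (wsum ((lanes st.m ((st.rows.getD j []).getD (fr.getD a 0) 0)).zip R)) =
      norm p st.m (wsum ((lanes new.m ((new.rows.getD j []).getD a 0)).zip
        (fr.map fun x => B ^ x)))))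

/-- induction of a state to a larger group; the tables are cut into chunks of 16 -/
def chkInd (old new : St) (n : ℕ) (reps : List (List (List ℕ))) (tree : List (ℕ × ℕ))
    (edges : List (List (List (ℕ × List ℕ)))) (go gn : List (List ℕ)) : Bool :=
  decide (go = old.gens.map (imgW d D)) && decide (gn = new.gens.map (imgW d D)) &&
  okSt p old && decide (0 < n) && decide (new.m = n * old.m) &&
  decide (g2 [] reps 0 = List.range d) &&
  decide (tree.length = n - 1) && decide (new.rows.length = new.gens.length) &&
  ((List.range (n - 1)).zip tree).all (fun e =>
    decide (e.2.1 < new.gens.length) && decide (e.2.2 ≤ e.1) &&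
    decide (g2 [] reps (e.1 + 1) = comp (gn.getD e.2.1 (List.range d)) (g2 [] reps e.2.2))) &&
  (List.range new.gens.length).all fun j =>
    (List.range n).all (fun x => (fun ed =>
      decide (ed.1 < n) && ed.2.all (fun k => decide (k < old.gens.length)) &&
      decide (comp (gn.getD j (List.range d)) (g2 [] reps x) =
        comp (g2 [] reps ed.1) (imgG d go ed.2))) (g2 (0, []) (edges.getD j []) x)) &&
    decide ((new.rows.getD j []).length = new.m) &&
    ((List.range new.m).zip (new.rows.getD j [])).all fun e => (fun ed =>
      decide (e.2 = B ^ (ed.1 * old.m) * mulW p old ed.2 (B ^ (e.1 % old.m))))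
        (g2 (0, []) (edges.getD j []) (e.1 / old.m))

end Check

end Cfsg.Agent.AltModCert
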