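import Mathlib

/-!
Packed vectors: a natural number read in base `2^16 + 1` is a vector of small coefficients.
`val` evaluates such a vector on a family of elements of an abelian group.
-/

namespace Cfsg.Agent.AltModCert

/-- the base of the packing -/
def B : ℕ := 65537

/-- the first `m` lanes of `X` are at most `k` -/
def Bd : ℕ → ℕ → ℕ → Prop
  | 0, _, _ => True
  | m + 1, k, X => X % B ≤ k ∧ Bd m k (X / B)

/-- first `m` lanes reduced modulo `p` -/
def norm (p : ℕ) : ℕ → ℕ → ℕ
  | 0, _ => 0
  | m + 1, X => X % B % p + B * norm p m (X / B)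

/-- the list of the first `m` lanes -/
def lanes : ℕ → ℕ → List ℕ
  | 0, _ => []
  | m + 1, X => X % B :: lanes m (X / B)

theorem norm_zero (p m : ℕ) : norm p m 0 = 0 := by
  induction m with
  | zero => rfl
  | succ m ih => simp [norm, ih]

/-- product of a packed vector with a list of rows -/
def dot : List ℕ → ℕ → ℕ
  | [], _ => 0
  | a :: t, X => X % B * a + dot t (X / B)

variable {V : Type*} [AddCommGroup V]

/-- evaluation of the first `m` lanes -/
def val : ℕ → (ℕ → V) → ℕ → V
  | 0, _, _ => 0
  | m + 1, w, X => (X % B) • w 0 + val m (fun i => w (i + 1)) (X / B)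

theorem Bd.mono {m : ℕ} : ∀ {k k' X : ℕ}, Bd m k X → k ≤ k' → Bd m k' X := by
  induction m with
  | zero => intros; trivial
  | succ m ih => intro k k' X h hk; exact ⟨h.1.trans hk, ih h.2 hk⟩

theorem Bd.zero (m k : ℕ) : Bd m k 0 := by
  induction m with
  | zero => trivial
  | succ m ih => refine ⟨by simp, ?_⟩; simpa using ih

@[simp] theorem val_zero (m : ℕ) : ∀ w : ℕ → V, val m w 0 = 0 := by
  induction m with
  | zero => intro w; rfl
  | succ m ih => intro w; simp [val, ih]

theorem val_add {m : ℕ} : ∀ {w : ℕ → V} {ka kb a b : ℕ}, Bd m ka a → Bd m kb b → ka + kb < B →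
    val m w (a + b) = val m w a + val m w b ∧ Bd m (ka + kb) (a + b) := by
  induction m with
  | zero => intros; simp [val, Bd]
  | succ m ih =>
    intro w ka kb a b ha hb hlt
    have hB : 0 < B := by norm_num [B]
    have h1 : a % B + b % B < B := lt_of_le_of_lt (Nat.add_le_add ha.1 hb.1) hlt
    have hmod : (a + b) % B = a % B + b % B := by
      rw [Nat.add_mod, Nat.mod_eq_of_lt h1]
    have hdiv : (a + b) / B = a / B + b / B := Nat.add_div_eq_of_add_mod_lt h1
    obtain ⟨hv, hb'⟩ := ih (w := fun i => w (i + 1)) ha.2 hb.2 hlt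
    refine ⟨?_, ?_⟩
    · simp only [val, hmod, hdiv, hv, add_smul]
      abel
    · exact ⟨hmod ▸ Nat.add_le_add ha.1 hb.1, hdiv ▸ hb'⟩

theorem val_smul {m : ℕ} : ∀ {w : ℕ → V} {k a c : ℕ}, Bd m k a → c * k < B →
    val m w (c * a) = c • val m w a ∧ Bd m (c * k) (c * a) := by
  intro w k a c
  induction c generalizing k with
  | zero => intros; simp [Bd.zero]
  | succ c ih =>
    intro ha hlt
    have h1 : c * k < B := lt_of_le_of_lt (Nat.mul_le_mul_right k (Nat.le_succ c)) hlt
    obtain ⟨hv, hb⟩ := ih ha h1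
    have h2 : c * k + k < B := by rwa [← Nat.succ_mul]
    obtain ⟨hv', hb'⟩ := val_add (w := w) hb ha h2
    rw [Nat.succ_mul, Nat.succ_mul, hv', hv, succ_nsmul]
    exact ⟨rfl, hb'⟩

theorem norm_bd {p : ℕ} (hp : 0 < p) {m : ℕ} : ∀ X, Bd m (p - 1) (norm p m X) := by
  induction m with
  | zero => intro; trivial
  | succ m ih =>
    intro X
    have h2 : X % B % p < B :=
      lt_of_le_of_lt (Nat.mod_le _ _) (Nat.mod_lt _ (by norm_num [B]))
    refine ⟨?_, ?_⟩
    · simp only [norm, Nat.add_mul_mod_self_left, Nat.mod_eq_of_lt h2]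
      have := Nat.mod_lt (X % B) hp
      omega
    · have : (norm p (m + 1) X) / B = norm p m (X / B) := by
        simp only [norm]
        rw [Nat.add_mul_div_left _ _ (by norm_num [B] : 0 < B), Nat.div_eq_of_lt h2, zero_add]
      rw [this]
      exact ih _

theorem nsmul_mod {p : ℕ} (hV : ∀ v : V, p • v = 0) (a : ℕ) (v : V) : (a % p) • v = a • v := by
  conv_rhs => rw [← Nat.mod_add_div a p]
  rw [add_smul, mul_comm, mul_smul, hV, smul_zero, add_zero]

theorem val_norm {p : ℕ} (hV : ∀ v : V, p • v = 0) {m : ℕ} :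
    ∀ (w : ℕ → V) X, val m w (norm p m X) = val m w X := by
  induction m with
  | zero => intros; rfl
  | succ m ih =>
    intro w X
    have h2 : X % B % p < B :=
      lt_of_le_of_lt (Nat.mod_le _ _) (Nat.mod_lt _ (by norm_num [B]))
    simp only [val, norm, Nat.add_mul_mod_self_left, Nat.mod_eq_of_lt h2]
    rw [Nat.add_mul_div_left _ _ (by norm_num [B] : 0 < B), Nat.div_eq_of_lt h2, zero_add, ih,
      nsmul_mod hV]

/-- the unit vector -/
theorem val_unit {m i : ℕ} : ∀ (w : ℕ → V), i < m → val m w (B ^ i) = w i := by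
  induction i generalizing m with
  | zero =>
    intro w hi
    obtain ⟨m, rfl⟩ : ∃ n, m = n + 1 := ⟨m - 1, by omega⟩
    simp [val, B]
  | succ i ih =>
    intro w hi
    obtain ⟨m, rfl⟩ : ∃ n, m = n + 1 := ⟨m - 1, by omega⟩
    have hB : 0 < B := by norm_num [B]
    simp only [val, pow_succ, Nat.mul_mod_left, Nat.mul_div_left _ hB, zero_smul, zero_add]
    exact ih (fun j => w (j + 1)) (by omega)

theorem val_shift {m a : ℕ} : ∀ (w : ℕ → V) X,
    val (a + m) w (B ^ a * X) = val m (fun i => w (i + a)) X := by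
  induction a with
  | zero => intro w X; simp
  | succ a ih =>
    intro w X
    have hB : 0 < B := by norm_num [B]
    have e : B ^ (a + 1) * X = B ^ a * X * B := by ring
    rw [show a + 1 + m = (a + m) + 1 by omega]
    simp only [val, e, Nat.mul_mod_left, Nat.mul_div_left _ hB, zero_smul, zero_add]
    rw [ih]
    congr 1

theorem val_norm_extend {p l k : ℕ} : ∀ (w : ℕ → V) X,
    val (l + k) w (norm p l X) = val l w (norm p l X) := by
  induction l with
  | zero => intro w X; simp [norm, val]
  | succ l ih =>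
    intro w X
    have h2 : X % B % p < B :=
      lt_of_le_of_lt (Nat.mod_le _ _) (Nat.mod_lt _ (by norm_num [B]))
    rw [show l + 1 + k = (l + k) + 1 by omega]
    simp only [val, norm, Nat.add_mul_div_left _ _ (by norm_num [B] : 0 < B),
      Nat.div_eq_of_lt h2, zero_add, ih]

/-- unit vectors are bounded by any positive number -/
theorem bd_unit {k : ℕ} (hk : 0 < k) : ∀ {m : ℕ} (i : ℕ), Bd m k (B ^ i) := by
  intro m
  induction m with
  | zero => intro i; trivial
  | succ m ih =>
    intro i
    have hB : 0 < B := by norm_num [B]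
    cases i with
    | zero =>
      refine ⟨le_trans (Nat.mod_le _ _) (by rw [pow_zero]; exact hk), ?_⟩
      rw [pow_zero, Nat.div_eq_of_lt (by norm_num [B] : 1 < B)]
      exact Bd.zero _ _
    | succ i =>
      refine ⟨by simp [pow_succ], ?_⟩
      rw [pow_succ, Nat.mul_div_left _ hB]
      exact ih i

theorem norm_unit {p : ℕ} : ∀ {m i : ℕ}, i < m → 1 < p → norm p m (B ^ i) = B ^ i := by
  intro m
  induction m with
  | zero => intro i hi; omega
  | succ m ih =>
    intro i hi hp
    have hB : 0 < B := by norm_num [B]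
    have h1 : (1 : ℕ) < B := by norm_num [B]
    cases i with
    | zero =>
      simp only [norm, pow_zero, Nat.mod_eq_of_lt h1, Nat.mod_eq_of_lt hp, Nat.div_eq_of_lt h1]
      rw [norm_zero]
      simp
    | succ i =>
      simp only [norm, pow_succ, Nat.mul_mod_left, Nat.zero_mod, Nat.mul_div_left _ hB, zero_add]
      rw [ih (by omega) hp]
      ring

theorem lanes_length (m : ℕ) : ∀ X, (lanes m X).length = m := by
  induction m with
  | zero => intro; rfl
  | succ m ih => intro X; simp [lanes, ih]

theorem val_lanes {m : ℕ} : ∀ (w : ℕ → V) X,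
    val m w X = ∑ i ∈ Finset.range m, ((lanes m X).getD i 0) • w i := by
  induction m with
  | zero => intros; simp [val]
  | succ m ih =>
    intro w X
    rw [Finset.sum_range_succ']
    simp only [val, lanes, List.getD_cons_zero, List.getD_cons_succ]
    rw [ih, add_comm]

theorem Bd.lane {m : ℕ} : ∀ {k X i : ℕ}, Bd m k X → (lanes m X).getD i 0 ≤ k := by
  induction m with
  | zero => intros; simp [lanes]
  | succ m ih =>
    intro k X i h
    cases i with
    | zero => simpa [lanes] using h.1
    | succ i => simpa [lanes] using ih h.2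

/-- weighted sum of packed vectors -/
def wsum : List (ℕ × ℕ) → ℕ
  | [] => 0
  | (c, X) :: t => c * X + wsum t

theorem val_wsum {m k kc : ℕ} (w : ℕ → V) : ∀ (l : List (ℕ × ℕ)),
    (∀ e ∈ l, e.1 ≤ kc ∧ Bd m k e.2) → l.length * (kc * k) < B →
    val m w (wsum l) = (l.map fun e => e.1 • val m w e.2).sum ∧
      Bd m (l.length * (kc * k)) (wsum l) := by
  intro l
  induction l with
  | nil => intros; simp [wsum, Bd.zero]
  | cons e t ih =>
    intro hmem hlt
    obtain ⟨c, X⟩ := e
    have hc := hmem (c, X) (by simp)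
    rw [List.length_cons, Nat.succ_mul] at hlt ⊢
    have ht := ih (fun e he => hmem e (by simp [he])) (by omega)
    have hck : c * k ≤ kc * k := Nat.mul_le_mul_right k hc.1
    have hs := val_smul (w := w) (c := c) hc.2 (by omega)
    have ha := val_add (w := w) (hs.2.mono hck) ht.2 (by omega)
    refine ⟨?_, ?_⟩
    · simp only [wsum, ha.1, hs.1, ht.1, List.map_cons, List.sum_cons]
    · rw [add_comm]; exact ha.2

theorem dot_eq : ∀ (R : List ℕ) (X : ℕ), dot R X = wsum ((lanes R.length X).zip R)
  | [], _ => rfl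
  | a :: t, X => by simp [dot, lanes, wsum, dot_eq t]

end Cfsg.Agent.AltModCert
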