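import Cfsg.Agent.AltModCert.Sound

/-!
Ways of producing rules: from states, from fixed points of nonsolvable subgroups, by
conjugation, and by deleting an element of order `p` normalizing the others.
-/

namespace Cfsg.Agent.AltModCert

/-- no nonzero vector is fixed by a nonsolvable subgroup -/
def NoFixed (A : Type*) [Group A] (V : Type*) [AddCommGroup V] [DistribMulAction A V] : Prop :=
  ∀ (v : V) (H : Subgroup A), ¬ Group.IsSolvable H → (∀ h ∈ H, h • v = v) → v = 0

/-- a subgroup generated by `a, b` with `a² = b³ = (ab)^q = 1`, `q` prime to `6` -/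
theorem not_isSolvable_closure_pair {A : Type*} [Group A] {a b : A} (ha1 : a ≠ 1)
    (ha : a ^ 2 = 1) (hb : b ^ 3 = 1) {q : ℕ} (hq : Nat.Coprime q 6) (hab : (a * b) ^ q = 1) :
    ¬ Group.IsSolvable (Subgroup.closure ({a, b} : Set A)) := by
  intro h
  set H := Subgroup.closure ({a, b} : Set A) with hH
  let x : H := ⟨a, Subgroup.subset_closure (by simp)⟩
  let y : H := ⟨b, Subgroup.subset_closure (by simp)⟩
  have hgen : Subgroup.closure ({x, y} : Set H) = ⊤ := by
    have := Subgroup.closure_closure_coe_preimage (k := ({a, b} : Set A))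
    convert this using 2
    ext z
    simp [x, y, Subtype.ext_iff]
  have : Nontrivial H := ⟨x, 1, fun e => ha1 (by simpa [x] using congrArg Subtype.val e)⟩
  have hlt := Group.IsSolvable.commutator_lt_top_of_nontrivial H
  apply hlt.ne
  set f := @Abelianization.of H _ with hf
  have hx : f x ^ 2 = 1 := by
    rw [← map_pow]; convert map_one f using 2; exact Subtype.ext (by simpa [x] using ha)
  have hy : f y ^ 3 = 1 := by
    rw [← map_pow]; convert map_one f using 2; exact Subtype.ext (by simpa [y] using hb)
  have hxyq : f (x * y) ^ q = 1 := by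
    rw [← map_pow]; convert map_one f using 2; exact Subtype.ext (by simpa [x, y] using hab)
  have h6 : (f x * f y) ^ 6 = 1 := by
    rw [mul_pow, show 6 = 2 * 3 by rfl, pow_mul, hx, pow_mul', hy]; simp
  have hxy : f x * f y = 1 := by
    rw [map_mul] at hxyq
    simpa [hq.gcd_eq_one] using pow_gcd_eq_one.mpr ⟨hxyq, h6⟩
  have hx1 : f x = 1 := by
    have hinv : f y = (f x)⁻¹ := eq_inv_of_mul_eq_one_right hxy
    rw [hinv, inv_pow, inv_eq_one] at hy
    calc f x = f x ^ 3 * (f x ^ 2)⁻¹ := by group
      _ = 1 := by rw [hx, hy]; simp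
  have hy1 : f y = 1 := by rwa [hx1, one_mul] at hxy
  rw [eq_top_iff, ← hgen, Subgroup.closure_le]
  have hk : ∀ z : H, f z = 1 → z ∈ commutator H := fun z hz => by
    rw [← Abelianization.ker_of]; exact hz
  rintro z (rfl | rfl)
  · exact hk _ hx1
  · exact hk _ hy1

variable {d : ℕ} {V : Type*} [AddCommGroup V] [DistribMulAction (alternatingGroup (Fin d)) V]

/-- a rule whose state forces the vector to vanish -/
theorem zero_of_vzero {D : Data} {r : Rule} (hr : r.all (fun e => decide (e.2 < B)) = true)
    (h : VZero d V D (ofRule r) 1) : Zero d V D r := by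
  intro v hv
  refine h (fun _ => v) (fun j hj σ hσ i hi => ?_) 0 Nat.one_pos
  simp only [ofRule, List.length_map] at hj hi hσ ⊢
  obtain rfl : i = 0 := by omega
  simp only [List.getD_eq_getElem?_getD, List.getElem?_map, List.getElem?_eq_getElem hj,
    Option.map_some, Option.getD_some] at hσ ⊢
  simp only [List.all_eq_true, decide_eq_true_eq] at hr
  rw [hv _ (List.getElem_mem hj) σ hσ]
  simp [val, Nat.mod_eq_of_lt (hr _ (List.getElem_mem hj))]

/-- check that two words generate a perfect group -/
def chkFix (d : ℕ) (D : Data) (a b : List Bool) (q : ℕ) : Bool :=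
  decide (imgW d D a ≠ List.range d) &&
  decide (imgG d [imgW d D a, imgW d D b] [0, 0] = List.range d) &&
  decide (imgG d [imgW d D a, imgW d D b] [1, 1, 1] = List.range d) &&
  decide (imgG d [imgW d D a, imgW d D b] (List.replicate q [0, 1]).flatten = List.range d) &&
  decide (Nat.gcd q 6 = 1)

theorem zero_fix {D : Data} (hD : Real d D) (hNF : NoFixed (alternatingGroup (Fin d)) V)
    (a b : List Bool) (q : ℕ) (h : chkFix d D a b q = true) :
    Zero d V D [(a, 1), (b, 1)] := by
  simp only [chkFix, Bool.and_eq_true, decide_eq_true_eq] at h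
  obtain ⟨⟨⟨⟨h0, h2⟩, h3⟩, hq⟩, hc⟩ := h
  obtain ⟨x, hx⟩ := good_imgW hD a
  obtain ⟨y, hy⟩ := good_imgW hD b
  rw [← hx, ← hy] at h2 h3 hq
  have hw : ∀ ws : List ℕ, imgG d [img x, img y] ws
      = img ((ws.map fun j => [x, y].getD j 1).prod) := by
    intro ws
    induction ws with
    | nil => simp [imgG, img_one]
    | cons j t ih =>
      rw [List.map_cons, List.prod_cons, ← comp_img, imgG, ih]
      congr 1
      rcases j with _ | _ | j <;> simp [img_one]
  rw [hw, ← img_one] at h2 h3 hq
  have h2' : x ^ 2 = 1 := by simpa [pow_two] using img_inj h2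
  have h3' : y ^ 3 = 1 := by simpa [pow_succ, mul_assoc] using img_inj h3
  have hq' : (x * y) ^ q = 1 := by
    have := img_inj hq
    simpa [List.map_flatten, List.prod_flatten] using this
  have hx1 : x ≠ 1 := by
    rintro rfl
    exact h0 (by rw [← hx, img_one])
  intro v hv
  refine hNF v _ (not_isSolvable_closure_pair hx1 h2' h3' hc hq') ?_
  have hfix : Subgroup.closure ({x, y} : Set _) ≤ MulAction.stabilizer _ v := by
    rw [Subgroup.closure_le]
    rintro z (rfl | rfl)
    · simpa using hv (a, 1) (by simp) _ hx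
    · simpa using hv (b, 1) (by simp) _ hy
  exact fun z hz => hfix hz

/-- check that `r'` is the conjugate of `r` by the element given by `h` -/
def chkConj (d : ℕ) (D : Data) (h : List Bool) (r r' : Rule) : Bool :=
  decide (r.length = r'.length) && (r.zip r').all fun e =>
    decide (comp (imgW d D e.2.1) (imgW d D h) = comp (imgW d D h) (imgW d D e.1.1)) &&
    decide (e.1.2 = e.2.2)

theorem zero_conj {D : Data} (hD : Real d D) (h : List Bool) {r r' : Rule}
    (hr : Zero d V D r) (hc : chkConj d D h r r' = true) : Zero d V D r' := by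
  simp only [chkConj, Bool.and_eq_true, decide_eq_true_eq, List.all_eq_true] at hc
  obtain ⟨hlen, hall⟩ := hc
  obtain ⟨g, hg⟩ := good_imgW hD h
  intro v hv
  have hz : g⁻¹ • v = 0 := by
    apply hr
    intro e he σ hσ
    obtain ⟨i, hi, rfl⟩ := List.mem_iff_getElem.mp he
    obtain ⟨h1, h2⟩ := hall (r[i], r'[i]'(hlen ▸ hi)) (by
      rw [List.mem_iff_getElem]; exact ⟨i, by simp [← hlen, hi], by simp⟩)
    obtain ⟨σ', hσ'⟩ := good_imgW hD (r'[i]'(hlen ▸ hi)).1
    have hcm : σ' * g = g * σ := img_inj (by
      rw [← comp_img, ← comp_img, hσ', hg, hσ]; exact h1)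
    have := hv _ (List.getElem_mem (hlen ▸ hi)) σ' hσ'
    rw [h2]
    rw [show σ = g⁻¹ * σ' * g by rw [mul_assoc, hcm, inv_mul_cancel_left]]
    rw [mul_smul, mul_smul, smul_inv_smul, this, smul_nsmul']
  simpa using congrArg (g • ·) hz

/-- check that the element `u` of order `p` modulo `r` normalizes `r` -/
def chkExt (p d : ℕ) (D : Data) (r : Rule) (u : List Bool) (upw : List ℕ)
    (conjs : List (List ℕ)) : Bool :=
  decide (conjs.length = r.length) &&
  upw.all (fun j => decide (j < r.length)) &&
  decide (imgG d [imgW d D u] (List.replicate p 0) = imgG d (r.map fun e => imgW d D e.1) upw) &&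
  decide ((upw.map fun j => (r.getD j ([], 0)).2).prod % p = 1) &&
  (r.zip conjs).all fun e => e.2.all (fun j => decide (j < r.length)) &&
    decide (comp (imgW d D e.1.1) (imgW d D u) =
      comp (imgW d D u) (imgG d (r.map fun e => imgW d D e.1) e.2)) &&
    decide ((e.2.map fun j => (r.getD j ([], 0)).2).prod % p = e.1.2 % p)

theorem zero_ext {p : ℕ} [Fact p.Prime] {D : Data} (hD : Real d D) (hV : ∀ v : V, p • v = 0)
    (r : Rule) (u : List Bool) (upw : List ℕ) (conjs : List (List ℕ))
    (hr : Zero d V D (r ++ [(u, 1)])) (hc : chkExt p d D r u upw conjs = true) :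
    Zero d V D r := by
  simp only [chkExt, Bool.and_eq_true, decide_eq_true_eq, List.all_eq_true] at hc
  obtain ⟨⟨⟨⟨hlen, hupw⟩, hup⟩, hupc⟩, hconj⟩ := hc
  obtain ⟨g, hg⟩ := good_imgW hD u
  intro v hv
  let C : V → Prop := fun x => ∀ e ∈ r, ∀ σ : alternatingGroup (Fin d),
    img σ = imgW d D e.1 → σ • x = e.2 • x
  have hgoodr : ∀ L ∈ r.map (fun e => imgW d D e.1), Good d L := by
    intro L hL
    obtain ⟨e, _, rfl⟩ := List.mem_map.mp hL
    exact good_imgW hD _
  have hword : ∀ ws : List ℕ, (∀ j ∈ ws, j < r.length) → ∀ σ : alternatingGroup (Fin d),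
      img σ = imgG d (r.map fun e => imgW d D e.1) ws → ∀ x, C x →
        σ • x = ((ws.map fun j => (r.getD j ([], 0)).2).prod) • x := by
    intro ws
    induction ws with
    | nil =>
      intro _ σ hσ x _
      rw [show σ = 1 from img_inj (by rw [hσ, img_one]; rfl)]
      simp
    | cons j t ih =>
      intro hm σ hσ x hx
      have hj := hm j (by simp)
      obtain ⟨a, ha⟩ := good_imgW hD (r.getD j ([], 0)).1
      obtain ⟨b, hb⟩ := good_imgG hgoodr t
      have hget : (r.map fun e => imgW d D e.1).getD j (List.range d)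
          = imgW d D (r.getD j ([], 0)).1 := by
        simp [List.getD_eq_getElem?_getD, hj]
      rw [show σ = a * b from img_inj (by rw [hσ, imgG, hget, ← ha, ← hb, comp_img]), mul_smul,
        ih (fun k hk => hm k (by simp [hk])) b hb x hx, smul_nsmul',
        hx _ (by rw [List.getD_eq_getElem (hn := hj)]; exact List.getElem_mem hj) a ha, smul_smul,
        List.map_cons, List.prod_cons, mul_comm]
  have hCg : ∀ x, C x → C (g • x) := by
    intro x hx e he σ hσ
    obtain ⟨i, hi, rfl⟩ := List.mem_iff_getElem.mp he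
    obtain ⟨⟨hm, h1⟩, h2⟩ := hconj (r[i], conjs[i]'(hlen.symm ▸ hi)) (by
      rw [List.mem_iff_getElem]; exact ⟨i, by simp [hlen, hi], by simp⟩)
    obtain ⟨b, hb⟩ := good_imgG hgoodr (conjs[i]'(hlen.symm ▸ hi))
    have hcm : σ * g = g * b := img_inj (by rw [← comp_img, ← comp_img, hσ, hg, hb]; exact h1)
    rw [smul_smul, hcm, mul_smul, hword _ hm b hb x hx, ← nsmul_mod hV, h2, nsmul_mod hV,
      smul_nsmul']
  have hp : ∀ x, C x → g ^ p • x = x := by
    intro x hx
    obtain ⟨b, hb⟩ := good_imgG hgoodr upw
    have hpw : ∀ n, imgG d [imgW d D u] (List.replicate n 0) = img (g ^ n) := by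
      intro n
      induction n with
      | zero => simp [imgG, img_one]
      | succ n ih => rw [List.replicate_succ, imgG, ih, pow_succ', ← comp_img, hg]; simp
    rw [show g ^ p = b from img_inj (by rw [← hpw, hb]; exact hup), hword _ hupw b hb x hx,
      ← nsmul_mod hV, hupc, one_smul]
  let f : V → V := fun x => g • x - x
  have hCf : ∀ n, C (f^[n] v) := by
    intro n
    induction n with
    | zero => exact hv
    | succ n ih =>
      rw [Function.iterate_succ_apply']
      intro e he σ hσ
      show σ • (g • f^[n] v - f^[n] v) = _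
      rw [smul_sub, hCg _ ih e he σ hσ, ih e he σ hσ, ← smul_sub]
  have hlast : f^[p] v = 0 := by
    let F : AddMonoid.End V := DistribSMul.toAddMonoidHom V g
    have hF : ∀ (n : ℕ) x, (F ^ n) x = g ^ n • x := by
      intro n
      induction n with
      | zero => intro x; simp
      | succ n ih => intro x; rw [pow_succ', pow_succ', mul_smul]; exact congrArg F (ih x)
    have hf : ∀ (n : ℕ) x, f^[n] x = ((F - 1) ^ n) x := by
      intro n
      induction n with
      | zero => intro x; simp
      | succ n ih => intro x; rw [Function.iterate_succ_apply', pow_succ', ih]; rfl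
    rw [hf]
    have hsum : ((F - 1) ^ p) v = (F ^ p) v - v := by
      obtain ⟨k, hk⟩ := Commute.exists_add_pow_prime_eq (Fact.out : p.Prime)
        ((Commute.one_right F).neg_right)
      have hneg : ((-1 : AddMonoid.End V) ^ p) v = -v := by
        rcases (Fact.out : p.Prime).eq_two_or_odd' with rfl | hodd
        · rw [neg_one_sq]
          have h2 := hV v
          rw [two_nsmul] at h2
          exact eq_neg_of_add_eq_zero_left h2
        · rw [hodd.neg_one_pow]; rfl
      rw [sub_eq_add_neg, hk, mul_assoc (p : AddMonoid.End V), mul_assoc (p : AddMonoid.End V)]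
      generalize F * -1 * k = k'
      show (F ^ p) v + ((-1 : AddMonoid.End V) ^ p) v + (p : AddMonoid.End V) (k' v) = _
      rw [hneg, AddMonoid.End.natCast_apply, hV, add_zero, ← sub_eq_add_neg]
    rw [hsum, hF, hp v hv, sub_self]
  have hdesc : ∀ n, f^[n] v = 0 → v = 0 := by
    intro n
    induction n with
    | zero => exact id
    | succ n ih =>
      intro hn
      apply ih
      apply hr
      intro e he σ hσ
      rcases List.mem_append.mp he with he | he
      · exact hCf n e he σ hσ
      · simp only [List.mem_singleton] at he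
        subst he
        rw [show σ = g from img_inj (hσ.trans hg.symm), one_smul]
        rw [Function.iterate_succ_apply'] at hn
        exact sub_eq_zero.mp hn
  exact hdesc p hlast

end Cfsg.Agent.AltModCert
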