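import Mathlib
import Cfsg.Agent.Coprime.Conj
import Cfsg.Agent.AltModCert.Rules

/-!
A noncentral `p`-element with nonsolvable centralizer in a minimal covering group of an
alternating group.
-/

namespace Cfsg.Agent.AltModCert

open Subgroup
open scoped commutatorElement

universe u

variable {H : Type u} [Group H]

/-- commutators with `y` in the centre give a nonsolvable centralizer -/
theorem not_isSolvable_centralizer_of_central {D : Subgroup H} {y : H}
    (hD : ¬ Group.IsSolvable D) (h : ∀ δ ∈ D, δ * y * δ⁻¹ * y⁻¹ ∈ center H) :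
    ¬ Group.IsSolvable (centralizer ({y} : Set H)) := by
  intro hs
  apply hD
  let f : D →* center H :=
    { toFun := fun δ => ⟨(δ : H) * y * (δ : H)⁻¹ * y⁻¹, h δ δ.2⟩
      map_one' := Subtype.ext (by simp)
      map_mul' := fun a b => Subtype.ext (by
        have hb := Subgroup.mem_center_iff.mp (h b b.2)
        have hc := hb ((a : H) * y * (a : H)⁻¹ * y⁻¹)⁻¹
        have hd := hb (a : H)
        simp only [Subgroup.coe_mul, mul_inv_rev]
        calc (a : H) * b * y * ((b : H)⁻¹ * (a : H)⁻¹) * y⁻¹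
            = ((a : H) * ((b : H) * y * (b : H)⁻¹ * y⁻¹)) * (y * (a : H)⁻¹ * y⁻¹) := by group
          _ = ((b : H) * y * (b : H)⁻¹ * y⁻¹) * ((a : H) * y * (a : H)⁻¹ * y⁻¹) := by
              rw [hd]; group
          _ = ((a : H) * y * (a : H)⁻¹ * y⁻¹) * ((b : H) * y * (b : H)⁻¹ * y⁻¹) := by
              rw [(hb ((a : H) * y * (a : H)⁻¹ * y⁻¹))]) }
  have hker : f.ker ≤ (centralizer ({y} : Set H)).subgroupOf D := by
    intro δ hδ
    rw [mem_subgroupOf, mem_centralizer_singleton_iff]
    have := congrArg Subtype.val (MonoidHom.mem_ker.mp hδ)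
    change (δ : H) * y * (δ : H)⁻¹ * y⁻¹ = 1 at this
    rw [mul_inv_eq_one, mul_inv_eq_iff_eq_mul] at this
    exact this
  let g : f.ker →* centralizer ({y} : Set H) :=
    { toFun := fun δ => ⟨((δ : D) : H), mem_subgroupOf.mp (hker δ.2)⟩
      map_one' := rfl
      map_mul' := fun _ _ => rfl }
  have hg : Function.Injective g := fun a b hab =>
    Subtype.ext (Subtype.ext (congrArg (fun z : centralizer ({y} : Set H) => (z : H)) hab))
  have : Group.IsSolvable f.ker := Group.isSolvable_of_isSolvable_injective hg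
  have : Group.IsSolvable (center H) := Group.isSolvable_of_comm fun a b =>
    Subtype.ext (Subgroup.mem_center_iff.mp b.2 a)
  exact Group.isSolvable_of_ker_le_range f.ker.subtype f (by rw [Subgroup.range_subtype])

/-- a covering group is a minimal supplement -/
def IsMinCover {A : Type*} [Group A] (φ : H →* A) : Prop :=
  Function.Surjective φ ∧ ∀ X : Subgroup H, X.map φ = ⊤ → X = ⊤

theorem ker_le_frattini [Finite H] {A : Type*} [Group A] {φ : H →* A} (h : IsMinCover φ) :
    φ.ker ≤ frattini H := by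
  refine le_iInf₂ fun (X : Subgroup H) (hX : IsCoatom X) => ?_
  by_contra hle
  have htop : X ⊔ φ.ker = ⊤ := hX.2 _ (lt_of_le_of_ne le_sup_left fun e => hle (e ▸ le_sup_right))
  refine hX.1 (h.2 X ?_)
  have := congrArg (Subgroup.map φ) htop
  rwa [Subgroup.map_sup, (Subgroup.map_eq_bot_iff _).mpr le_rfl, sup_bot_eq,
    Subgroup.map_top_of_surjective _ h.1] at this

theorem isNilpotent_ker [Finite H] {A : Type*} [Group A] {φ : H →* A} (h : IsMinCover φ) :
    Group.IsNilpotent φ.ker :=
  haveI := frattini_nilpotent (G := H)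
  Group.nilpotent_of_mulEquiv (Subgroup.subgroupOfEquivOfLe (ker_le_frattini h))

/-- a minimal subgroup with given image -/
theorem exists_min_preimage [Finite H] {A : Type*} [Group A] (φ : H →* A) (D : Subgroup H) :
    ∃ T ≤ D, T.map φ = D.map φ ∧
      IsMinCover ((φ.comp T.subtype).rangeRestrict) := by
  classical
  have hex : ∃ n, ∃ T ≤ D, T.map φ = D.map φ ∧ Nat.card T = n := ⟨_, D, le_rfl, rfl, rfl⟩
  obtain ⟨T, hTD, hT, hn⟩ := Nat.find_spec hex
  refine ⟨T, hTD, hT, MonoidHom.rangeRestrict_surjective _, fun X hX => ?_⟩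
  have hXm : (X.map T.subtype).map φ = D.map φ := by
    rw [← hT, Subgroup.map_map]
    have := congrArg (Subgroup.map (φ.comp T.subtype).range.subtype) hX
    rw [Subgroup.map_map, MonoidHom.subtype_comp_rangeRestrict, ← MonoidHom.range_eq_map,
      Subgroup.range_subtype] at this
    rw [this, MonoidHom.range_comp, Subgroup.range_subtype]
  have hmin := Nat.find_min' hex ⟨X.map T.subtype, (Subgroup.map_subtype_le X).trans hTD, hXm, rfl⟩
  apply Subgroup.eq_top_of_card_eq
  refine le_antisymm (Subgroup.card_le_card_group X) ?_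
  calc Nat.card T = Nat.find hex := hn
    _ ≤ Nat.card (X.map T.subtype) := hmin
    _ = Nat.card X := Subgroup.card_map_of_injective T.subtype_injective

/-- the order of a minimal cover has only the primes of the quotient -/
theorem coprime_card_of_minCover [Finite H] {A : Type*} [Group A] {φ : H →* A}
    (h : IsMinCover φ) {p : ℕ} [Fact p.Prime] (hA : (Nat.card A).Coprime p) :
    (Nat.card H).Coprime p := by
  rw [Nat.coprime_comm, (Fact.out : p.Prime).coprime_iff_not_dvd]
  intro hdvd
  haveI := isNilpotent_ker h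
  let M : Subgroup H := φ.ker
  obtain ⟨P⟩ := (inferInstance : Nonempty (Sylow p H))
  have hPM : (P : Subgroup H) ≤ M := by
    intro x hx
    obtain ⟨k, hk⟩ := P.2 ⟨x, hx⟩
    have hxk : x ^ p ^ k = 1 := congrArg Subtype.val hk
    show φ x = 1
    have h1 : (φ x) ^ p ^ k = 1 := by rw [← map_pow, hxk, map_one]
    rw [← orderOf_eq_one_iff]
    exact Nat.eq_one_of_dvd_coprimes ((hA.symm).pow_left k) (orderOf_dvd_of_pow_eq_one h1)
      (orderOf_dvd_natCard _)
  have hchar : ((P.subtype hPM : Sylow p M) : Subgroup M).Characteristic :=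
    Sylow.characteristic_of_normal _
      inferInstance
  have hN : (P : Subgroup H).Normal := by
    have : (((P.subtype hPM : Sylow p M) : Subgroup M).map M.subtype).Normal :=
      ConjAct.normal_of_characteristic_of_normal
    rwa [Sylow.coe_subtype, Subgroup.map_subgroupOf_eq_of_le hPM] at this
  obtain ⟨K, hK⟩ := Subgroup.exists_right_complement'_of_coprime P.card_coprime_index
  have hsup : (P : Subgroup H) ⊔ K = ⊤ := hK.sup_eq_top
  have hKtop : K = ⊤ := h.2 K (by
    have := congrArg (Subgroup.map φ) hsup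
    rwa [Subgroup.map_sup, (Subgroup.map_eq_bot_iff _).mpr hPM, bot_sup_eq,
      Subgroup.map_top_of_surjective _ h.1] at this)
  have hd : Disjoint (P : Subgroup H) K := hK.disjoint
  rw [hKtop, disjoint_top] at hd
  exact P.ne_bot_of_dvd_card hdvd hd

/-- every module without vectors fixed by nonsolvable subgroups vanishes -/
def ModProp (p : ℕ) (A : Type*) [Group A] : Prop :=
  ∀ (V : Type u) [AddCommGroup V] [DistribMulAction A V],
    (∀ v : V, p • v = 0) → NoFixed A V → ∀ v : V, v = 0

/-- a chief factor in the kernel gives a module -/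
theorem exists_bad_module [Finite H] {A : Type*} [Group A] {φ : H →* A} (hφ : IsMinCover φ)
    {p : ℕ} [Fact p.Prime] (hmod : ModProp.{u} p A) (Pm : Subgroup H) [Pm.Normal]
    (hPp : IsPGroup p Pm) (hPM : Pm ≤ φ.ker) (hnc : ¬ Pm ≤ center H) :
    ∃ y : H, y ∉ center H ∧ (∃ k, orderOf y = p ^ k) ∧
      ¬ Group.IsSolvable (centralizer ({y} : Set H)) := by
  classical
  set Z : Subgroup H := Pm ⊓ center H with hZ
  haveI hnil := isNilpotent_ker hφ
  have hex : ∃ n, ∃ W : Subgroup H, W.Normal ∧ Z < W ∧ W ≤ Pm ∧ Nat.card W = n :=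
    ⟨_, Pm, inferInstance, lt_of_le_of_ne inf_le_left (fun e => hnc (e ▸ inf_le_right)),
      le_rfl, rfl⟩
  obtain ⟨W, hWn, hZW, hWP, hWc⟩ := Nat.find_spec hex
  haveI := hWn
  haveI : Z.Normal := Subgroup.normal_inf_normal _ _
  have hmin : ∀ W' : Subgroup H, W'.Normal → Z ≤ W' → W' < W → W' = Z := by
    intro W' h1 h2 h3
    by_contra h4
    have := Nat.find_min' hex ⟨W', h1, lt_of_le_of_ne h2 (Ne.symm h4), h3.le.trans hWP, rfl⟩
    rw [← hWc] at this
    exact h3.ne (Subgroup.eq_of_le_of_card_ge h3.le this)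
  have hWM : ⁅W, φ.ker⁆ ≤ Z := by
    by_contra hne
    have hle : ⁅W, φ.ker⁆ ≤ W := commutator_le_left _ _
    have heq : ⁅W, φ.ker⁆ ⊔ Z = W := by
      by_contra h'
      have := hmin _ inferInstance le_sup_right (lt_of_le_of_ne (sup_le hle hZW.le) h')
      exact hne (le_sup_left.trans this.le)
    have hser : ∀ n, W ≤ Subgroup.lowerCentralSeries φ.ker n ⊔ Z := by
      intro n
      induction n with
      | zero => exact (hWP.trans hPM).trans le_sup_left
      | succ n ih =>
        rw [← heq]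
        refine sup_le ?_ le_sup_right
        rw [Subgroup.commutator_le]
        intro a ha b hb
        obtain ⟨c, hc, z, hz, rfl⟩ := Subgroup.mem_sup_of_normal_right.mp (ih ha)
        have hzc := Subgroup.mem_center_iff.mp hz.2
        have e : ⁅c * z, b⁆ = ⁅c, b⁆ := by
          simp only [commutatorElement_def, mul_inv_rev]
          calc c * z * b * (z⁻¹ * c⁻¹) * b⁻¹
              = c * (z * b) * z⁻¹ * c⁻¹ * b⁻¹ := by group
            _ = c * b * c⁻¹ * b⁻¹ := by rw [← hzc b]; group
        rw [e]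
        exact mem_sup_left (Subgroup.commutator_mem_commutator hc hb)
    obtain ⟨n, hn⟩ := (Subgroup.isNilpotent_iff_lowerCentralSeries φ.ker).mp hnil
    have := hser n
    rw [hn, bot_sup_eq] at this
    exact hZW.not_ge this
  set q := QuotientGroup.mk' Z
  set Wb : Subgroup (H ⧸ Z) := W.map q with hWb
  haveI : Wb.Normal := hWn.map q (QuotientGroup.mk'_surjective Z)
  let ψ₀ : H →* MulAut Wb := (MulAut.conjNormal (H := Wb)).comp q
  have hWW : ∀ a ∈ W, ∀ b ∈ φ.ker, q b * q a * (q b)⁻¹ = q a := by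
    intro a ha b hb
    have h1 : ⁅a, b⁆ ∈ Z := hWM (commutator_mem_commutator ha hb)
    have h2 : q ⁅a, b⁆ = 1 := (QuotientGroup.eq_one_iff _).mpr h1
    rw [map_commutatorElement, commutatorElement_def, mul_inv_eq_one, mul_inv_eq_iff_eq_mul] at h2
    rw [← h2, mul_inv_cancel_right]
  have hker : φ.ker ≤ ψ₀.ker := by
    intro b hb
    rw [MonoidHom.mem_ker]
    ext w
    obtain ⟨a, ha, hw⟩ := w.2
    show q b * (w : H ⧸ Z) * (q b)⁻¹ = w
    rw [← hw, hWW a ha b hb]
  let ψ : A →* MulAut Wb := φ.liftOfSurjective hφ.1 ⟨ψ₀, hker⟩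
  have hψ : ∀ (g : H) (w : Wb), ((ψ (φ g) w : Wb) : H ⧸ Z) = q g * w * (q g)⁻¹ := by
    intro g w
    have h : ψ (φ g) = ψ₀ g := MonoidHom.liftOfRightInverse_comp_apply φ _ _ ⟨ψ₀, hker⟩ g
    rw [h]; rfl
  have hcomm : ∀ a b : Wb, a * b = b * a := by
    rintro ⟨_, a, ha, rfl⟩ ⟨_, b, hb, rfl⟩
    apply Subtype.ext
    show q a * q b = q b * q a
    have h := hWW b hb a (hPM (hWP ha))
    rwa [mul_inv_eq_iff_eq_mul] at h
  letI : CommGroup Wb := { (inferInstance : Group Wb) with mul_comm := hcomm }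
  have hWbp : IsPGroup p Wb := (hPp.to_le hWP).map q
  obtain ⟨w₀, hw₀, hw₀Z⟩ := SetLike.exists_of_lt hZW
  have hpow : ∀ w : Wb, w ^ p = 1 := by
    let f : Wb →* Wb := powMonoidHom p
    have hlt : f.range ≠ ⊤ := by
      intro h
      have hinj : Function.Injective f :=
        Finite.injective_iff_surjective.mpr (MonoidHom.range_eq_top.mp h)
      obtain ⟨k, hk⟩ := hWbp ⟨q w₀, mem_map_of_mem _ hw₀⟩
      have hall : ∀ k (w : Wb), w ^ p ^ k = 1 → w = 1 := by
        intro k
        induction k with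
        | zero => intro w hw; simpa using hw
        | succ k ih =>
          intro w hw
          apply hinj
          rw [map_one]
          apply ih
          show (w ^ p) ^ p ^ k = 1
          rw [← pow_mul, ← pow_succ']; exact hw
      have := congrArg Subtype.val (hall k _ hk)
      exact hw₀Z ((QuotientGroup.eq_one_iff _).mp this)
    set W' : Subgroup H := (f.range.map Wb.subtype).comap q with hW'
    have hW'n : W'.Normal := by
      refine Subgroup.Normal.comap ⟨?_⟩ q
      rintro _ ⟨_, ⟨w, rfl⟩, rfl⟩ g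
      refine ⟨_, ⟨MulAut.conjNormal g w, rfl⟩, ?_⟩
      show ((MulAut.conjNormal g w ^ p : Wb) : H ⧸ Z) = g * ((w ^ p : Wb) : H ⧸ Z) * g⁻¹
      rw [← map_pow, MulAut.conjNormal_apply]
    have hZW' : Z ≤ W' := by
      intro z hz
      show q z ∈ f.range.map Wb.subtype
      rw [show q z = 1 from (QuotientGroup.eq_one_iff _).mpr hz]
      exact one_mem _
    have hW'W : W' ≤ W := by
      intro a ha
      obtain ⟨⟨_, b, hb, rfl⟩, _, hab⟩ := ha
      have : b⁻¹ * a ∈ Z := (QuotientGroup.eq).mp hab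
      simpa using mul_mem hb (hZW.le this)
    have hne : W' ≠ W := by
      intro e
      apply hlt
      rw [eq_top_iff]
      rintro ⟨_, a, ha, rfl⟩ _
      obtain ⟨v, hv, hva⟩ : q a ∈ f.range.map Wb.subtype := (e ▸ ha : a ∈ W')
      have hv' : v = ⟨q a, mem_map_of_mem _ ha⟩ := Subtype.ext hva
      rw [← hv']
      exact hv
    have hW'Z := hmin _ hW'n hZW' (lt_of_le_of_ne hW'W hne)
    intro w
    have h1 : ((w ^ p : Wb) : H ⧸ Z) ∈ f.range.map Wb.subtype := ⟨w ^ p, ⟨w, rfl⟩, rfl⟩
    obtain ⟨a, ha⟩ := QuotientGroup.mk'_surjective Z ((w ^ p : Wb) : H ⧸ Z)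
    have h2 : a ∈ W' := by
      show q a ∈ f.range.map Wb.subtype
      rw [ha]; exact h1
    rw [hW'Z] at h2
    exact Subtype.ext (ha ▸ (QuotientGroup.eq_one_iff _).mpr h2)
  letI : DistribMulAction A (Additive Wb) :=
    { smul := fun a v => Additive.ofMul (ψ a v.toMul)
      one_smul := fun v => by show Additive.ofMul (ψ 1 v.toMul) = v; rw [map_one]; rfl
      mul_smul := fun a b v => by
        show Additive.ofMul (ψ (a * b) v.toMul) = Additive.ofMul (ψ a (ψ b v.toMul))
        rw [map_mul]; rfl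
      smul_zero := fun a => by show Additive.ofMul (ψ a 1) = Additive.ofMul 1; rw [map_one]
      smul_add := fun a v w => by
        show Additive.ofMul (ψ a (v.toMul * w.toMul)) = _
        rw [map_mul]; rfl }
  by_contra hbad
  push Not at hbad
  have hNF : NoFixed A (Additive Wb) := by
    intro v S hS hfix
    by_contra hv
    obtain ⟨a, ha, hav⟩ := v.toMul.2
    have haZ : a ∉ Z := by
      intro h
      apply hv
      apply Additive.toMul.injective
      exact Subtype.ext (hav.symm.trans ((QuotientGroup.eq_one_iff _).mpr h))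
    have hac : a ∉ center H := fun h => haZ ⟨hWP ha, h⟩
    obtain ⟨k, hk⟩ := IsPGroup.iff_orderOf.mp (hPp.to_le hWP) ⟨a, ha⟩
    refine not_isSolvable_centralizer_of_central (D := S.comap φ) ?_ ?_
      (hbad a hac ⟨k, by simpa using hk⟩)
    · intro h
      apply hS
      have h2 : Group.IsSolvable ((S.comap φ).map φ) :=
        Group.isSolvable_of_surjective (f := φ.subgroupMap _) (MonoidHom.subgroupMap_surjective φ _)
      rwa [Subgroup.map_comap_eq_self_of_surjective hφ.1] at h2
    · intro δ hδ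
      have h1 : ψ (φ δ) v.toMul = v.toMul := congrArg Additive.toMul (hfix _ hδ)
      have h2 := congrArg Subtype.val h1
      rw [hψ, ← hav] at h2
      have h3 : q (δ * a * δ⁻¹ * a⁻¹) = 1 := by
        rw [map_mul, map_mul, map_mul, map_inv, map_inv, h2, mul_inv_cancel]
      exact ((QuotientGroup.eq_one_iff _).mp h3).2
  have h0 := hmod (Additive Wb) (fun v => by
    apply Additive.toMul.injective
    rw [toMul_nsmul, hpow]; rfl) hNF (Additive.ofMul ⟨q w₀, mem_map_of_mem _ hw₀⟩)
  exact hw₀Z ((QuotientGroup.eq_one_iff _).mp (congrArg (fun v : Additive Wb => (v.toMul : H ⧸ Z)) h0))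

/-- the main lemma -/
theorem exists_bad [Finite H] {A : Type*} [Group A] {φ : H →* A} (hφ : IsMinCover φ)
    (hcA : center A = ⊥) {p : ℕ} [Fact p.Prime] {σ : A} (hσ : orderOf σ = p)
    {D₀ : Subgroup A} (hD₀ : ¬ Group.IsSolvable D₀) (hcomm : ∀ δ ∈ D₀, δ * σ = σ * δ)
    (hmod : (Nat.card D₀).Coprime p ∨ ModProp.{u} p A) :
    ∃ y : H, y ∉ center H ∧ (∃ k, orderOf y = p ^ k) ∧
      ¬ Group.IsSolvable (centralizer ({y} : Set H)) := by
  classical
  have hp : p.Prime := Fact.out
  set M : Subgroup H := φ.ker with hM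
  haveI : Group.IsNilpotent M := isNilpotent_ker hφ
  set Bσ : Subgroup H := (zpowers σ).comap φ with hB
  obtain ⟨x₀, hx₀, hx₀p⟩ : ∃ x₀ : H, φ x₀ = σ ∧ ∃ k, x₀ ^ p ^ k = 1 := by
    obtain ⟨x, hx⟩ := hφ.1 σ
    obtain ⟨k, m, hm, hn⟩ := Nat.exists_eq_pow_mul_and_not_dvd (orderOf_pos x).ne' p hp.ne_one
    obtain ⟨j, hj⟩ : ∃ j, m * j % p = 1 := by
      obtain ⟨j, hj⟩ := Nat.exists_mul_mod_eq_one_of_coprime
        ((hp.coprime_iff_not_dvd.mpr hm).symm) hp.one_lt
      exact ⟨j, hj.2⟩
    refine ⟨x ^ (m * j), ?_, k, ?_⟩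
    · rw [map_pow, hx, ← pow_mod_orderOf, hσ, hj, pow_one]
    · rw [← pow_mul, show m * j * p ^ k = p ^ k * m * j by ring, ← hn, pow_mul, pow_orderOf_eq_one,
        one_pow]
  have hx₀c : x₀ ∉ center H := by
    intro hx
    have hσc : σ ∈ center A := by
      rw [Subgroup.mem_center_iff]
      intro a
      obtain ⟨b, rfl⟩ := hφ.1 a
      rw [← hx₀, ← map_mul, ← map_mul, Subgroup.mem_center_iff.mp hx b]
    rw [hcA, mem_bot] at hσc
    rw [hσc, orderOf_one] at hσ
    exact hp.ne_one hσ.symm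
  have hx₀B : x₀ ∈ Bσ := by
    show φ x₀ ∈ zpowers σ
    rw [hx₀]; exact mem_zpowers σ
  have hz : IsPGroup p (zpowers (⟨x₀, hx₀B⟩ : Bσ)) := by
    obtain ⟨k, hk⟩ := hx₀p
    intro g
    obtain ⟨i, hi⟩ := mem_zpowers_iff.mp g.2
    refine ⟨k, Subtype.ext (Subtype.ext ?_)⟩
    have : ((g : Bσ) : H) = x₀ ^ i := by rw [← hi]; simp
    simp only [SubmonoidClass.coe_pow, this, OneMemClass.coe_one]
    rw [← zpow_natCast, ← zpow_mul, mul_comm, zpow_mul, zpow_natCast, hk, one_zpow]
  obtain ⟨S, hS⟩ := hz.exists_le_sylow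
  set P : Subgroup H := (S : Subgroup Bσ).map Bσ.subtype with hPdef
  have hx₀P : x₀ ∈ P := ⟨⟨x₀, hx₀B⟩, hS (mem_zpowers _), rfl⟩
  have hPp : IsPGroup p P := S.2.map _
  have hPB : P ≤ Bσ := map_subtype_le _
  set N : Subgroup H := normalizer (P : Set H) ⊓ D₀.comap φ with hN
  have hNmap : N.map φ = D₀ := by
    refine le_antisymm ?_ fun δ hδ => ?_
    · rw [Subgroup.map_le_iff_le_comap]; exact inf_le_right
    · obtain ⟨g, hg⟩ := hφ.1 δ
      have hnorm : ∀ b, b ∈ Bσ ↔ g * b * g⁻¹ ∈ Bσ := by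
        intro b
        show φ b ∈ zpowers σ ↔ φ (g * b * g⁻¹) ∈ zpowers σ
        rw [map_mul, map_mul, map_inv, hg]
        have hcz : ∀ z ∈ zpowers σ, δ * z * δ⁻¹ = z := by
          intro z hz
          obtain ⟨i, rfl⟩ := mem_zpowers_iff.mp hz
          have : Commute δ (σ ^ i) := Commute.zpow_right (hcomm δ hδ) i
          rw [this.eq, mul_inv_cancel_right]
        constructor
        · intro h; rwa [hcz _ h]
        · intro h
          have h2 : δ⁻¹ * (δ * φ b * δ⁻¹) * δ = δ * φ b * δ⁻¹ := by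
            have := hcz _ h
            calc δ⁻¹ * (δ * φ b * δ⁻¹) * δ = δ⁻¹ * (δ * (δ * φ b * δ⁻¹) * δ⁻¹) * δ := by rw [this]
              _ = δ * φ b * δ⁻¹ := by group
          have h3 : φ b = δ * φ b * δ⁻¹ := by rw [← h2]; group
          rw [h3]; exact h
      haveI : Finite (Sylow p Bσ) := inferInstance
      let e : Bσ ≃* Bσ :=
        { toFun := fun b => ⟨g * b * g⁻¹, (hnorm b).mp b.2⟩
          invFun := fun b => ⟨g⁻¹ * b * g, (hnorm _).mpr (by simp [mul_assoc])⟩
          left_inv := fun b => Subtype.ext (by simp [mul_assoc])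
          right_inv := fun b => Subtype.ext (by simp [mul_assoc])
          map_mul' := fun a b => Subtype.ext (by simp [mul_assoc]) }
      obtain ⟨b, hb⟩ := MulAction.exists_smul_eq Bσ S (S.mapSurjective (f := e.toMonoidHom) e.surjective)
      have hmem : ∀ a : Bσ, a ∈ (S : Subgroup Bσ) ↔ b⁻¹ * e a * b ∈ (S : Subgroup Bσ) := by
        intro a
        have h1 : e a ∈ ((S.mapSurjective (f := e.toMonoidHom) e.surjective : Sylow p Bσ) :
            Subgroup Bσ) ↔ a ∈ (S : Subgroup Bσ) := by
          show e.toMonoidHom a ∈ (S : Subgroup Bσ).map e.toMonoidHom ↔ _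
          exact Subgroup.mem_map_iff_mem e.injective
        rw [← h1, ← hb]
        rw [Sylow.coe_subgroup_smul, Subgroup.mem_pointwise_smul_iff_inv_smul_mem]
        simp [MulAut.smul_def]
      have hn : (b : H)⁻¹ * g ∈ normalizer (P : Set H) := by
        rw [mem_normalizer_iff]
        intro a
        constructor
        · rintro ⟨a, ha, rfl⟩
          refine ⟨b⁻¹ * e a * b, (hmem a).mp ha, ?_⟩
          simp [e, mul_assoc]
        · rintro ⟨c, hc, hce⟩
          have hcB : g * a * g⁻¹ ∈ Bσ := by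
            have : g * a * g⁻¹ = (b : H) * (c : H) * (b : H)⁻¹ := by
              simp only [Subgroup.coe_subtype] at hce
              rw [hce]; group
            rw [this]; exact mul_mem (mul_mem b.2 c.2) (inv_mem b.2)
          have ha : a ∈ Bσ := (hnorm a).mpr hcB
          refine ⟨⟨a, ha⟩, (hmem _).mpr ?_, rfl⟩
          have hbc : b⁻¹ * e ⟨a, ha⟩ * b = c := by
            apply Subtype.ext
            simp only [Subgroup.coe_subtype] at hce
            simp [e, hce, mul_assoc]
          rw [hbc]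
          exact hc
      obtain ⟨i, hi⟩ := mem_zpowers_iff.mp (show φ (b : H) ∈ zpowers σ from b.2)
      refine ⟨x₀ ^ i * ((b : H)⁻¹ * g), ⟨mul_mem (zpow_mem (le_normalizer hx₀P) i) hn, ?_⟩, ?_⟩
      · show φ _ ∈ D₀
        simp [hx₀, hi, hg, hδ]
      · simp [hx₀, hi, hg]
  have hNns : ¬ Group.IsSolvable N := by
    intro h
    apply hD₀
    have : Group.IsSolvable (N.map φ) :=
      Group.isSolvable_of_surjective (f := φ.subgroupMap N) (MonoidHom.subgroupMap_surjective φ N)
    rwa [hNmap] at this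
  have hcom : ∀ δ ∈ N, δ * x₀ * δ⁻¹ * x₀⁻¹ ∈ P ⊓ M := by
    intro δ hδ
    refine ⟨P.mul_mem ((mem_normalizer_iff.mp hδ.1 x₀).mp hx₀P) (P.inv_mem hx₀P), ?_⟩
    show φ _ = 1
    simp [hx₀, hcomm _ hδ.2]
  rcases hmod with hcop | hmod
  · obtain ⟨T, hTN, hTmap, hTmin⟩ := exists_min_preimage φ N
    have hrange : (φ.comp T.subtype).range = D₀ := by
      rw [MonoidHom.range_comp, Subgroup.range_subtype, hTmap, hNmap]
    have hTc : (Nat.card T).Coprime p := coprime_card_of_minCover hTmin (by rwa [hrange])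
    obtain ⟨n, hn⟩ := IsPGroup.iff_card.mp (hPp.to_le (inf_le_left : P ⊓ M ≤ P))
    have hTn : T ≤ normalizer ((P ⊓ M : Subgroup H) : Set H) := by
      intro t ht
      have ht' := (hTN ht).1
      rw [mem_normalizer_iff]
      intro a
      have hMn := (inferInstance : M.Normal)
      constructor
      · rintro ⟨h1, h2⟩; exact ⟨(mem_normalizer_iff.mp ht' a).mp h1, hMn.conj_mem a h2 t⟩
      · rintro ⟨h1, h2⟩
        refine ⟨(mem_normalizer_iff.mp ht' a).mpr h1, ?_⟩
        simpa [mul_assoc] using hMn.conj_mem _ h2 t⁻¹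
    obtain ⟨c, hc, hcm⟩ := Cfsg.Agent.Coprime.exists_fixed_of_invariant_coset (A := T)
      (N := P ⊓ M) (g := x₀) hTn (by rw [hn]; exact hTc.pow_right n)
      (.inr (by
        haveI := (hPp.to_le (inf_le_left : P ⊓ M ≤ P)).isNilpotent
        infer_instance))
      (by
        intro a ha
        have h1 := P.mul_mem (P.inv_mem hx₀P) ((mem_normalizer_iff.mp (hTN ha).1 x₀).mp hx₀P)
        refine ⟨by simpa [mul_assoc] using h1, ?_⟩
        show φ _ = 1
        simp only [map_mul, map_inv, hx₀]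
        rw [mul_assoc σ⁻¹, hcomm _ (hTN ha).2, ← mul_assoc σ⁻¹, inv_mul_cancel, one_mul,
          mul_inv_cancel])
    have hcP : c ∈ P := by simpa using mul_mem hx₀P hcm.1
    have hcσ : φ c = σ := by
      have h2 : φ (x₀⁻¹ * c) = 1 := hcm.2
      rw [map_mul, map_inv, hx₀, inv_mul_eq_one] at h2
      exact h2.symm
    refine ⟨c, ?_, ?_, fun hs => ?_⟩
    · intro h
      have hσc : σ ∈ center A := by
        rw [Subgroup.mem_center_iff]
        intro a
        obtain ⟨b, rfl⟩ := hφ.1 a
        rw [← hcσ, ← map_mul, ← map_mul, Subgroup.mem_center_iff.mp h b]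
      rw [hcA, mem_bot] at hσc
      rw [hσc, orderOf_one] at hσ
      exact hp.ne_one hσ.symm
    · obtain ⟨k, hk⟩ := IsPGroup.iff_orderOf.mp hPp ⟨c, hcP⟩
      exact ⟨k, by simpa using hk⟩
    · apply hD₀
      have hle : T ≤ centralizer ({c} : Set H) := fun t ht =>
        mem_centralizer_singleton_iff.mpr (hc t ht)
      haveI := hs
      have : Group.IsSolvable T :=
        Group.isSolvable_of_isSolvable_injective (inclusion_injective hle)
      have : Group.IsSolvable (T.map φ) :=
        Group.isSolvable_of_surjective (f := φ.subgroupMap T) (MonoidHom.subgroupMap_surjective φ T)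
      rwa [hTmap, hNmap] at this
  · obtain ⟨Q⟩ := (inferInstance : Nonempty (Sylow p M))
    have hQN : (Q : Subgroup M).Normal := inferInstance
    haveI := Sylow.characteristic_of_normal Q hQN
    set Pm : Subgroup H := (Q : Subgroup M).map M.subtype with hPm
    haveI : Pm.Normal := ConjAct.normal_of_characteristic_of_normal
    have hPMle : P ⊓ M ≤ Pm := by
      intro a ha
      have hpg : IsPGroup p ((P ⊓ M).subgroupOf M) :=
        (hPp.to_le inf_le_left).comap_subtype
      obtain ⟨Q', hQ'⟩ := hpg.exists_le_sylow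
      haveI : Subsingleton (Sylow p M) := by
        have := Sylow.unique_of_normal Q hQN
        infer_instance
      rw [Subsingleton.elim Q' Q] at hQ'
      exact ⟨⟨a, ha.2⟩, hQ' ha, rfl⟩
    by_cases hcen : Pm ≤ center H
    · refine ⟨x₀, hx₀c, ?_, not_isSolvable_centralizer_of_central hNns
        fun δ hδ => hcen (hPMle (hcom δ hδ))⟩
      obtain ⟨k, hk⟩ := IsPGroup.iff_orderOf.mp hPp ⟨x₀, hx₀P⟩
      exact ⟨k, by simpa using hk⟩
    · exact exists_bad_module hφ hmod Pm (Q.2.map _) (map_subtype_le _) hcen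

end Cfsg.Agent.AltModCert
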