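import Cfsg.Agent.AltModCert.Engine

/-!
Soundness of the certificate checker.
-/

namespace Cfsg.Agent.AltModCert

variable {d : ℕ} {V : Type*} [AddCommGroup V] [DistribMulAction (alternatingGroup (Fin d)) V]

theorem okSt_spec {p : ℕ} {st : St} (h : okSt p st = true) :
    2 * p * p * (st.m + 1) < B ∧ 0 < p ∧ st.rows.length = st.gens.length ∧
      ∀ j < st.gens.length, (st.rows.getD j []).length = st.m ∧
        ∀ i, Bd st.m (p - 1) ((st.rows.getD j []).getD i 0) := by
  simp only [okSt, Bool.and_eq_true, decide_eq_true_eq, List.all_eq_true] at h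
  obtain ⟨⟨⟨h1, h2⟩, h3⟩, h4⟩ := h
  have hrow : ∀ X, okRow p st.m X = true → Bd st.m (p - 1) X := by
    intro X hX
    simp only [okRow, Bool.or_eq_true, Bool.and_eq_true, decide_eq_true_eq] at hX
    rcases hX with ⟨⟨hi, hc⟩, he⟩ | he
    · simp only [pw] at hc he
      rw [← he]
      have hpB : p < B := lt_of_le_of_lt (by
        calc p ≤ p * p := Nat.le_mul_of_pos_left p h2
          _ ≤ 2 * p * p := Nat.mul_le_mul_right p (by omega)
          _ ≤ _ := Nat.le_mul_of_pos_right _ (Nat.succ_pos _)) h1
      have hb := (val_smul (V := ℤ) (m := st.m) (w := fun _ => 0)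
        (k := 1) (c := X / B ^ (top X 9 0)) (bd_unit Nat.one_pos (top X 9 0))
        (by rw [mul_one]; exact hc.trans hpB)).2
      exact hb.mono (by rw [mul_one]; omega)
    · rw [← he]; exact norm_bd h2 _
  refine ⟨h1, h2, h3, fun j hj => ?_⟩
  rw [List.getD_eq_getElem (hn := h3 ▸ hj)]
  have := h4 _ (List.getElem_mem (h3 ▸ hj))
  refine ⟨this.1, fun i => ?_⟩
  rw [List.getD_eq_getElem?_getD]
  cases hi : (st.rows[j]'(h3 ▸ hj))[i]? with
  | none => exact Bd.zero _ _
  | some X => exact hrow X (this.2 X (List.mem_of_getElem? hi))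

omit [DistribMulAction (alternatingGroup (Fin d)) V] in
theorem val_one {m : ℕ} (hm : 0 < m) (w : ℕ → V) : val m w 1 = w 0 := by
  simpa using val_unit (i := 0) w hm

omit [DistribMulAction (alternatingGroup (Fin d)) V] in
theorem val_congr {m : ℕ} : ∀ {w w' : ℕ → V} (_ : ∀ i < m, w i = w' i) X,
    val m w X = val m w' X := by
  induction m with
  | zero => intros; rfl
  | succ m ih =>
    intro w w' h X
    simp only [val, h 0 (Nat.succ_pos m)]
    rw [ih (w' := fun i => w' (i + 1)) (fun i hi => h (i + 1) (by omega))]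

theorem smul_nsmul' (σ : alternatingGroup (Fin d)) (n : ℕ) (v : V) : σ • (n • v) = n • (σ • v) :=
  map_nsmul (DistribSMul.toAddMonoidHom V σ) n v

theorem val_map {m : ℕ} (σ : alternatingGroup (Fin d)) : ∀ (w : ℕ → V) X,
    val m (fun i => σ • w i) X = σ • val m w X := by
  induction m with
  | zero => intro w X; simp [val]
  | succ m ih => intro w X; simp only [val, smul_add, smul_nsmul', ih]

omit [DistribMulAction (alternatingGroup (Fin d)) V] in
theorem zip_sum {m : ℕ} (w : ℕ → V) : ∀ {k : ℕ} (X : ℕ) (u : ℕ → V) (R : List ℕ),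
    k ≤ R.length → (∀ i < k, val m w (R.getD i 0) = u i) →
    (((lanes k X).zip R).map fun e => e.1 • val m w e.2).sum = val k u X := by
  intro k
  induction k with
  | zero => intros; simp [lanes, val]
  | succ k ih =>
    intro X u R hlen hR
    cases R with
    | nil => simp at hlen
    | cons a t =>
      have h0 : val m w a = u 0 := by simpa using hR 0 (Nat.succ_pos k)
      simp only [lanes, val, List.zip_cons_cons, List.map_cons, List.sum_cons, h0]
      congr 1
      refine ih (X / B) (fun i => u (i + 1)) t (by simpa using hlen) fun i hi => ?_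
      simpa using hR (i + 1) (by omega)

theorem Bd.mem_lanes {m k : ℕ} : ∀ {X a : ℕ}, Bd m k X → a ∈ lanes m X → a ≤ k := by
  induction m with
  | zero => intro X a _ h; simp [lanes] at h
  | succ m ih =>
    intro X a hb h
    rcases List.mem_cons.mp h with rfl | h
    · exact hb.1
    · exact ih hb.2 h

omit [DistribMulAction (alternatingGroup (Fin d)) V] in
/-- evaluation of the product of a packed vector with a matrix -/
theorem val_prod {p m k : ℕ} (hV : ∀ v : V, p • v = 0) (w : ℕ → V) {X : ℕ} {R : List ℕ}
    (hX : Bd k (p - 1) X) (hR : ∀ i, Bd m (p - 1) (R.getD i 0)) (hlen : k ≤ R.length)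
    (hsmall : k * ((p - 1) * (p - 1)) < B) (u : ℕ → V)
    (hu : ∀ i < k, val m w (R.getD i 0) = u i) :
    val m w (norm p m (wsum ((lanes k X).zip R))) = val k u X := by
  have hl : ((lanes k X).zip R).length = k := by
    rw [List.length_zip, lanes_length]; omega
  have hs := val_wsum (m := m) (k := p - 1) (kc := p - 1) w ((lanes k X).zip R)
    (fun e he => by
      have := List.of_mem_zip he
      refine ⟨hX.mem_lanes this.1, ?_⟩
      obtain ⟨i, hi, hie⟩ := List.mem_iff_getElem.mp this.2
      rw [← hie]
      have hb := hR i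
      rw [List.getD_eq_getElem (hn := hi)] at hb
      exact hb)
    (by rw [hl]; exact hsmall)
  rw [val_norm hV, hs.1]
  exact zip_sum w X u R hlen hu

theorem small_prod {p m k : ℕ} (h : 2 * p * p * (m + 1) < B) (hk : k ≤ m) :
    k * ((p - 1) * (p - 1)) < B := by
  refine lt_of_le_of_lt ?_ h
  have h1 : (p - 1) * (p - 1) ≤ p * p := Nat.mul_le_mul (Nat.sub_le _ _) (Nat.sub_le _ _)
  calc k * ((p - 1) * (p - 1)) ≤ (m + 1) * (p * p) := Nat.mul_le_mul (by omega) h1
    _ ≤ 2 * p * p * (m + 1) := by ring_nf; omega

theorem val_mul {p : ℕ} {D : Data} {st : St} (hV : ∀ v : V, p • v = 0) (hok : okSt p st = true)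
    {w : ℕ → V} (hw : Sat d V D st w) {j : ℕ} (hj : j < st.gens.length)
    {σ : alternatingGroup (Fin d)} (hσ : img σ = imgW d D (st.gens.getD j []))
    {X : ℕ} (hX : Bd st.m (p - 1) X) :
    val st.m w (mul p st j X) = σ • val st.m w X := by
  obtain ⟨hs, _, _, hrows⟩ := okSt_spec hok
  rw [mul, dot_eq, (hrows j hj).1, val_prod hV w hX (hrows j hj).2 (hrows j hj).1.ge (small_prod hs le_rfl)
    (fun i => σ • w i) (fun i hi => (hw j hj σ hσ i hi).symm), val_map]

theorem good_gens {D : Data} (hD : Real d D) (st : St) :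
    ∀ g ∈ st.gens.map (imgW d D), Good d g := by
  intro g hg
  obtain ⟨w, _, rfl⟩ := List.mem_map.mp hg
  exact good_imgW hD w

theorem bd_mulW {p : ℕ} {st : St} (hp : 0 < p) {X : ℕ} (hX : Bd st.m (p - 1) X) :
    ∀ ws, Bd st.m (p - 1) (mulW p st ws X)
  | [] => hX
  | _ :: _ => norm_bd hp _

theorem val_mulW {p : ℕ} {D : Data} {st : St} (hD : Real d D) (hV : ∀ v : V, p • v = 0)
    (hok : okSt p st = true) {w : ℕ → V} (hw : Sat d V D st w) :
    ∀ {ws : List ℕ}, (∀ j ∈ ws, j < st.gens.length) → ∀ {X : ℕ}, Bd st.m (p - 1) X →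
      ∀ σ : alternatingGroup (Fin d), img σ = imgG d (st.gens.map (imgW d D)) ws →
        val st.m w (mulW p st ws X) = σ • val st.m w X := by
  intro ws
  induction ws with
  | nil =>
    intro _ X _ σ hσ
    have : σ = 1 := img_inj (by rw [hσ, img_one]; rfl)
    simp [mulW, this]
  | cons j t ih =>
    intro hmem X hX σ hσ
    have hj := hmem j (by simp)
    obtain ⟨a, ha⟩ := good_imgW hD (st.gens.getD j [])
    obtain ⟨b, hb⟩ := good_imgG (good_gens hD st) t
    have hget : (st.gens.map (imgW d D)).getD j (List.range d) = imgW d D (st.gens.getD j []) := by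
      simp [List.getD_eq_getElem?_getD, hj]
    have : σ = a * b := img_inj (by
      rw [hσ, imgG, hget, ← ha, ← hb, comp_img])
    rw [mulW, val_mul hV hok hw hj ha (bd_mulW (okSt_spec hok).2.1 hX t),
      ih (fun k hk => hmem k (by simp [hk])) hX b hb, this, mul_smul]

theorem mem_zip_range {α : Type*} {l : List α} {a : α} {i : ℕ} (hi : i < l.length)
    (ha : l[i] = a) : (i, a) ∈ (List.range l.length).zip l := by
  rw [List.mem_iff_getElem]
  refine ⟨i, by simp [hi], ?_⟩
  simp [ha]

/-- all entries of a checked certificate evaluate to zero -/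
theorem killed {p : ℕ} {D : Data} {st : St} {rules : List Rule} {vals : List (List ℕ)} {ops : List Op}
    (hD : Real d D) (hV : ∀ v : V, p • v = 0) (hok : okSt p st = true)
    (hrules : ∀ r ∈ rules, Zero d V D r)
    (hops : ∀ e ∈ (List.range ops.length).zip ops, chkOp p d D st rules vals e.1 e.2 = true)
    {w : ℕ → V} (hw : Sat d V D st w) (k : ℕ) :
    val st.m w (getV vals ops.length k) = 0 ∧ Bd st.m (p - 1) (getV vals ops.length k) := by
  obtain ⟨hs, hp, _, _⟩ := okSt_spec hok
  induction k using Nat.strong_induction_on with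
  | h k ih =>
    rcases Nat.lt_or_ge k ops.length with hk | hk
    swap
    · rw [getV, if_neg (by omega)]
      exact ⟨val_zero _ _, Bd.zero _ _⟩
    rw [getV, if_pos hk]
    have hget : ∀ i, val st.m w (getV vals k i) = 0 ∧ Bd st.m (p - 1) (getV vals k i) := by
      intro i
      rcases Nat.lt_or_ge i k with hik | hik
      · have := ih i hik
        rw [getV, if_pos (hik.trans hk)] at this
        rw [getV, if_pos hik]
        exact this
      · rw [getV, if_neg (by omega)]
        exact ⟨val_zero _ _, Bd.zero _ _⟩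
    have hcomb : ∀ l : List (ℕ × ℕ), l.length ≤ 2 * (st.m + 1) →
        val st.m w (combV p st vals k l) = 0 := by
      intro l hl
      unfold combV
      have hsz : (l.map fun e => (e.2 % p, getV vals k e.1)).length * ((p - 1) * (p - 1)) < B := by
        refine lt_of_le_of_lt ?_ hs
        rw [List.length_map]
        calc l.length * ((p - 1) * (p - 1)) ≤ 2 * (st.m + 1) * (p * p) :=
              Nat.mul_le_mul hl (Nat.mul_le_mul (Nat.sub_le _ _) (Nat.sub_le _ _))
          _ = 2 * p * p * (st.m + 1) := by ring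
      rw [val_norm hV, (val_wsum w _ (fun e he => by
        obtain ⟨x, _, rfl⟩ := List.mem_map.mp he
        exact ⟨Nat.le_sub_one_of_lt (Nat.mod_lt _ hp), (hget x.1).2⟩) hsz).1]
      apply List.sum_eq_zero
      intro x hx
      simp only [List.map_map, List.mem_map, Function.comp] at hx
      obtain ⟨e, _, rfl⟩ := hx
      rw [(hget e.1).1, smul_zero]
    have h := hops _ (mem_zip_range hk rfl)
    generalize ops[k] = op at h
    cases op with
    | comb l =>
      simp only [chkOp, Bool.and_eq_true, decide_eq_true_eq] at h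
      rw [← h.2]
      exact ⟨hcomb l h.1, norm_bd hp _⟩
    | mul j i =>
      simp only [chkOp, Bool.and_eq_true, decide_eq_true_eq] at h
      obtain ⟨σ, hσ⟩ := good_imgW hD (st.gens.getD j [])
      rw [← h.2]
      refine ⟨?_, norm_bd hp _⟩
      rw [val_mul hV hok hw h.1 hσ (hget i).2, (hget i).1, smul_zero]
    | kill r c wit =>
      simp only [chkOp, Bool.and_eq_true, decide_eq_true_eq, List.all_eq_true] at h
      obtain ⟨⟨⟨⟨hr, hc⟩, hv⟩, hwl⟩, hall⟩ := h
      have hcb : Bd st.m (p - 1) c := hc ▸ norm_bd hp c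
      rw [hv]
      refine ⟨?_, hcb⟩
      apply hrules (rules.getD r [])
        (by rw [List.getD_eq_getElem (hn := hr)]; exact List.getElem_mem hr)
      intro e he σ hσ
      obtain ⟨i, hi, rfl⟩ := List.mem_iff_getElem.mp he
      have := hall ((rules.getD r [])[i], wit[i]'(hwl ▸ hi)) (by
        rw [List.mem_iff_getElem]
        exact ⟨i, by rw [List.length_zip]; omega, by simp⟩)
      obtain ⟨⟨⟨hws, hl⟩, himg⟩, heq⟩ := this
      have hσ' := hσ.trans himg.symm
      have hval := val_mulW hD hV hok hw hws hcb σ hσ'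
      have hz := hcomb _ hl
      rw [← heq, val_norm hV] at hz
      have hk1 := (val_wsum (m := st.m) (k := p - 1) (kc := p) w
        [(1, mulW p st (wit[i]'(hwl ▸ hi)).1 c), (p - ((rules.getD r [])[i]).2 % p, c)]
        (fun e he => by
          simp only [List.mem_cons, List.not_mem_nil, or_false] at he
          rcases he with rfl | rfl
          · exact ⟨hp, bd_mulW hp hcb _⟩
          · exact ⟨Nat.sub_le _ _, hcb⟩)
        (by
          refine lt_of_le_of_lt ?_ hs
          simp only [List.length_cons, List.length_nil]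
          calc (0 + 1 + 1) * (p * (p - 1)) ≤ 2 * (p * p) :=
                Nat.mul_le_mul le_rfl (Nat.mul_le_mul_left p (Nat.sub_le _ _))
            _ ≤ 2 * p * p * (st.m + 1) := by
                rw [← mul_assoc]; exact Nat.le_mul_of_pos_right _ (Nat.succ_pos _))).1
      rw [hk1] at hz
      simp only [List.map_cons, List.map_nil, List.sum_cons, List.sum_nil, add_zero, one_smul,
        hval] at hz
      set v := val st.m w c
      set a := ((rules.getD r [])[i]).2
      have h2 : (p - a % p) • v + a • v = 0 := by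
        rw [← nsmul_mod hV a v, ← add_smul, Nat.sub_add_cancel (Nat.mod_lt _ hp).le, hV]
      exact add_right_cancel (a := σ • v) (b := (p - a % p) • v) (c := a • v)
        (by rw [hz, add_comm, h2])

/-- soundness of `chkKill` -/
theorem vzero_of_chkKill {p : ℕ} {D : Data} {st : St} {rules : List Rule} {vals : List (List ℕ)}
    {ops : List Op} {units : List ℕ} {q : ℕ} (hD : Real d D) (hV : ∀ v : V, p • v = 0)
    (hrules : ∀ r ∈ rules, Zero d V D r)
    (h : chkKill p d D st rules vals ops units q = true) : VZero d V D st q := by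
  simp only [chkKill, Bool.and_eq_true, decide_eq_true_eq, List.all_eq_true] at h
  obtain ⟨⟨⟨⟨hok, hu⟩, hq⟩, hops⟩, hunits⟩ := h
  intro w hw i hi
  have := hunits (i, units[i]'(hu ▸ hi)) (by
    subst hu; exact mem_zip_range hi rfl)
  have hk := (killed hD hV hok hrules hops hw (units[i]'(hu ▸ hi))).1
  rw [this, val_unit w (by omega)] at hk
  exact hk

theorem VZero.mono {D : Data} {st : St} {q q' : ℕ} (hq : q' ≤ q) (h : VZero d V D st q) :
    VZero d V D st q' :=
  fun w hw i hi => h w hw i (lt_of_lt_of_le hi hq)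

/-- soundness of `chkRed` -/
theorem vzero_of_chkRed {p : ℕ} {D : Data} {st new : St} {rules : List Rule} {vals : List (List ℕ)}
    {ops : List Op} {fr R idx : List ℕ} (hD : Real d D) (hV : ∀ v : V, p • v = 0)
    (hrules : ∀ r ∈ rules, Zero d V D r)
    (h : chkRed p d D st rules vals ops fr R idx new = true)
    (hnew : VZero d V D new new.m) : VZero d V D st st.m := by
  simp only [chkRed, Bool.and_eq_true, decide_eq_true_eq, List.all_eq_true, Bool.or_eq_true,
    List.mem_range] at h
  obtain ⟨⟨⟨⟨⟨⟨⟨⟨⟨hok, hokn⟩, hops⟩, hgens⟩, hfrl⟩, hfr⟩, hRl⟩, hR⟩, hsupp⟩, hrows⟩ := h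
  obtain ⟨hs, hp, _, hrw⟩ := okSt_spec hok
  obtain ⟨hsn, _, _, hrwn⟩ := okSt_spec hokn
  intro w hw
  have hRbd : ∀ k, Bd st.m (p - 1) (R.getD k 0) := by
    intro k
    rcases Nat.lt_or_ge k st.m with hk | hk
    · rw [← (hR k hk).1]; exact norm_bd hp _
    · rw [List.getD_eq_default _ _ (by omega)]; exact Bd.zero _ _
  have hexp : ∀ k < st.m, val st.m w (R.getD k 0) = w k := by
    intro k hk
    rcases (hR k hk).2 with hk' | hk'
    · rw [hk', val_unit w hk]
    · have hz := (killed hD hV hok hrules hops hw (idx.getD k 0)).1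
      rw [hk', val_norm hV] at hz
      have hk1 := (val_wsum (m := st.m) (k := p) (kc := p) w
        [(1, B ^ k), (p - 1, R.getD k 0)]
        (fun e he => by
          simp only [List.mem_cons, List.not_mem_nil, or_false] at he
          rcases he with rfl | rfl
          · refine ⟨hp, ?_⟩
            exact bd_unit hp k
          · exact ⟨Nat.sub_le _ _, (hRbd k).mono (Nat.sub_le _ _)⟩)
        (by
          refine lt_of_le_of_lt ?_ hs
          simp only [List.length_cons, List.length_nil]
          calc (0 + 1 + 1) * (p * p) = 2 * p * p := by ring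
            _ ≤ _ := Nat.le_mul_of_pos_right _ (Nat.succ_pos _))).1
      rw [hk1] at hz
      simp only [List.map_cons, List.map_nil, List.sum_cons, List.sum_nil, add_zero, one_smul,
        val_unit w hk] at hz
      refine add_right_cancel (b := (p - 1) • val st.m w (R.getD k 0)) ?_
      rw [hz, show val st.m w (R.getD k 0) + (p - 1) • val st.m w (R.getD k 0)
        = (1 + (p - 1)) • val st.m w (R.getD k 0) by rw [add_smul, one_smul],
        show 1 + (p - 1) = p by omega, hV]
  let u : ℕ → V := fun a => w (fr.getD a 0)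
  have hfr' : ∀ a < new.m, fr.getD a 0 < st.m := by
    intro a ha
    rw [List.getD_eq_getElem (hn := hfrl.symm ▸ ha)]
    exact hfr _ (List.getElem_mem _)
  have hsat : Sat d V D new u := by
    intro j hj σ hσ a ha
    rw [hgens] at hj hσ
    have hfa := hfr' a ha
    have e := hrows j hj a ha
    show σ • w (fr.getD a 0) = _
    rw [hw j hj σ hσ _ hfa]
    have e1 := val_prod hV w ((hrw j hj).2 (fr.getD a 0)) hRbd hRl.ge (small_prod hs le_rfl) w hexp
    have hFbd : ∀ i, Bd st.m (p - 1) ((fr.map fun x => B ^ x).getD i 0) ∨ p = 1 := by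
      intro i
      rcases Nat.lt_or_ge 1 p with hp1 | hp1
      · left
        rw [List.getD_eq_getElem?_getD]
        cases hi : (fr.map fun x => B ^ x)[i]? with
        | none => exact Bd.zero _ _
        | some X =>
          obtain ⟨x, _, rfl⟩ := List.mem_map.mp (List.mem_of_getElem? hi)
          exact (bd_unit Nat.one_pos x).mono (by omega)
      · right; omega
    rcases Nat.lt_or_ge 1 p with hp1 | hp1
    swap
    · have h1 : p = 1 := by omega
      have hz : ∀ v : V, v = 0 := fun v => by simpa [h1] using hV v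
      rw [hz (val new.m u _), hz (val st.m w _)]
    have hF : ∀ i, Bd st.m (p - 1) ((fr.map fun x => B ^ x).getD i 0) :=
      fun i => (hFbd i).resolve_right (by omega)
    have hjn : j < new.gens.length := hgens.symm ▸ hj
    have e2 := val_prod hV w ((hrwn j hjn).2 a) hF (by simp [hfrl])
      (small_prod hsn le_rfl) u (fun i hi => by
        show val st.m w ((fr.map fun x => B ^ x).getD i 0) = w (fr.getD i 0)
        rw [List.getD_eq_getElem?_getD, List.getD_eq_getElem?_getD]
        simp [hfrl.symm ▸ hi, val_unit w (hfr _ (List.getElem_mem (hfrl.symm ▸ hi)))])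
    rw [← e1, e, e2]
  have hu0 := hnew u hsat
  intro k hk
  rw [← hexp k hk, val_lanes]
  refine Finset.sum_eq_zero fun i hi => ?_
  have hi' := Finset.mem_range.mp hi
  have := hsupp k hk ((lanes st.m (R.getD k 0)).getD i 0, i) (by
    rw [List.mem_iff_getElem]
    refine ⟨i, by simp [lanes_length, hi'], ?_⟩
    rw [List.getElem_zip, List.getElem_range]
    exact Prod.ext (List.getD_eq_getElem _ _ _).symm rfl)
  dsimp only at this
  rcases this with h0 | hc
  · rw [h0, zero_smul]
  · obtain ⟨a, ha, rfl⟩ := List.mem_iff_getElem.mp (List.contains_iff_mem.mp hc)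
    have := hu0 a (hfrl ▸ ha)
    simp only [u, List.getD_eq_getElem (hn := ha)] at this
    rw [this, smul_zero]

theorem bd_shift {m k a : ℕ} : ∀ {X : ℕ}, Bd m k X → Bd (a + m) k (B ^ a * X) := by
  induction a with
  | zero => intro X h; simpa using h
  | succ a ih =>
    intro X h
    have e : B ^ (a + 1) * X = B ^ a * X * B := by ring
    rw [show a + 1 + m = (a + m) + 1 by omega, e]
    refine ⟨by simp, ?_⟩
    rw [Nat.mul_div_left _ (by norm_num [B] : 0 < B)]
    exact ih h

/-- soundness of `chkInd` -/
theorem vzero_of_chkInd {p : ℕ} {D : Data} {old new : St} {n : ℕ} {reps : List (List (List ℕ))}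
    {tree : List (ℕ × ℕ)} {edges : List (List (List (ℕ × List ℕ)))} {go gn : List (List ℕ)} (hD : Real d D)
    (hV : ∀ v : V, p • v = 0) (h : chkInd p d D old new n reps tree edges go gn = true)
    (hnew : VZero d V D new old.m) : VZero d V D old old.m := by
  simp only [chkInd, Bool.and_eq_true, decide_eq_true_eq, List.all_eq_true, List.mem_range] at h
  obtain ⟨⟨⟨⟨⟨⟨⟨⟨⟨rfl, rfl⟩, hok⟩, hn⟩, hm⟩, h0⟩, htl⟩, hrl⟩, htree⟩, hedge⟩ := h
  obtain ⟨hs, hp, _, hrw⟩ := okSt_spec hok
  intro w hw
  set l := old.m with hl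
  have hgood : ∀ x, x < n → Good d (g2 [] reps x) := by
    intro x
    induction x using Nat.strong_induction_on with
    | h x ih =>
      intro hx
      cases x with
      | zero => rw [h0]; exact Good.range
      | succ x =>
        have hxt : x < tree.length := by omega
        obtain ⟨⟨h1, h2⟩, h3⟩ := htree (x, tree[x]) (by
          rw [← htl]; exact mem_zip_range hxt rfl)
        rw [h3]
        refine Good.comp ?_ (ih _ (by omega) (by omega))
        rw [List.getD_eq_getElem (hn := by simpa using h1), List.getElem_map]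
        exact good_imgW hD _
  classical
  let τ : ℕ → alternatingGroup (Fin d) := fun x =>
    if h : x < n then Classical.choose (hgood x h) else 1
  have hτ : ∀ x, x < n → img (τ x) = g2 [] reps x := by
    intro x hx
    simp only [τ, dif_pos hx]
    exact Classical.choose_spec (hgood x hx)
  let u : ℕ → V := fun k => τ (k / l) • w (k % l)
  rcases Nat.eq_zero_or_pos l with hl0 | hlpos
  · intro i hi; omega
  have hu : ∀ y i, i < l → u (i + y * l) = τ y • w i := by
    intro y i hi
    simp only [u, Nat.add_mul_div_right _ _ hlpos, Nat.div_eq_of_lt hi, zero_add,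
      Nat.add_mul_mod_self_right, Nat.mod_eq_of_lt hi]
  have hsat : Sat d V D new u := by
    intro j hj σ hσ k hk
    rw [hm] at hk
    have hx : k / l < n := Nat.div_lt_of_lt_mul (by rwa [mul_comm] at hk)
    have hi : k % l < l := Nat.mod_lt _ hlpos
    obtain ⟨⟨hall, hlenj⟩, hrows⟩ := hedge j hj
    obtain ⟨⟨hy, hws⟩, hcomp⟩ := hall (k / l) hx
    have hkj : k < (new.rows.getD j []).length := by rw [hlenj, hm]; exact hk
    have hr := hrows (k, (new.rows.getD j [])[k]) (by
      rw [← hlenj]; exact mem_zip_range hkj rfl)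
    dsimp only at hr
    rw [← List.getD_eq_getElem _ 0 hkj] at hr
    rw [show (new.gens.map (imgW d D)).getD j (List.range d) = imgW d D (new.gens.getD j []) by
      simp [List.getD_eq_getElem?_getD, hj]] at hcomp
    set y := (g2 (0, []) (edges.getD j []) (k / l)).1
    set ws := (g2 (0, []) (edges.getD j []) (k / l)).2
    obtain ⟨b, hb⟩ := good_imgG (good_gens hD old) ws
    have he : σ * τ (k / l) = τ y * b := img_inj (by
      rw [← comp_img, ← comp_img, hσ, hτ _ hx, hτ _ hy, hb]
      exact hcomp)
    rw [hr]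
    show σ • (τ (k / l) • w (k % l)) = _
    rw [smul_smul, he, mul_smul]
    rcases Nat.lt_or_ge 1 p with hp1 | hp1
    swap
    · have h1 : p = 1 := by omega
      have hz : ∀ v : V, v = 0 := fun v => by simpa [h1] using hV v
      rw [hz (val new.m u _), hz (τ y • _)]
    have hb1 : Bd l (p - 1) (B ^ (k % l)) := (bd_unit Nat.one_pos _).mono (by omega)
    have hv := val_mulW hD hV hok hw hws hb1 b hb
    rw [val_unit w hi] at hv
    rw [← hv, ← val_map]
    set X := mulW p old ws (B ^ (k % l)) with hX
    obtain ⟨r, hr'⟩ : ∃ r, new.m = y * l + (l + r) := by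
      have : y * l + l ≤ n * l := by
        rw [← Nat.succ_mul]; exact Nat.mul_le_mul_right l hy
      exact ⟨new.m - (y * l + l), by omega⟩
    rw [hr', val_shift]
    have hXn : ∃ Y, X = norm p l Y := by
      cases hcase : ws with
      | nil => exact ⟨B ^ (k % l), by
          rw [hX, hcase, mulW]
          exact (norm_unit hi (by omega)).symm⟩
      | cons a t => exact ⟨_, by rw [hX, hcase, mulW, mul]⟩
    obtain ⟨Y, hY⟩ := hXn
    rw [hY, val_norm_extend]
    exact val_congr (fun i hi => (hu y i hi).symm) _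
  have h' := hnew u hsat
  intro i hi
  have h1 := h' i hi
  have hτ0 : τ 0 = 1 := img_inj (by rw [hτ 0 hn, h0, img_one])
  rw [show i = i + 0 * l by simp, hu 0 i hi, hτ0, one_smul] at h1
  exact h1

end Cfsg.Agent.AltModCert
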